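import Mathlib

set_option autoImplicit false

namespace Cfsg.Agent.Lib.Helper6

section AbPerm

universe u

/-- The largest product of positive integers with sum `n`. -/
def abF : ℕ → ℕ
  | 0 => 1
  | 1 => 1
  | 2 => 2
  | 3 => 3
  | 4 => 4
  | (n + 5) => 3 * abF (n + 2)

theorem abF_add3 (n : ℕ) (hn : 2 ≤ n) : abF (n + 3) = 3 * abF n := by
  obtain ⟨m, rfl⟩ : ∃ m, n = m + 2 := ⟨n - 2, by omega⟩
  rw [show m + 2 + 3 = m + 5 by omega, abF]

theorem abF_ge : ∀ n, n ≤ abF n := by
  intro n
  induction n using Nat.strong_induction_on with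
  | _ n ih =>
    by_cases h : n < 5
    · interval_cases n <;> norm_num [abF]
    · obtain ⟨m, rfl⟩ : ∃ m, n = m + 3 := ⟨n - 3, by omega⟩
      rw [abF_add3 m (by omega)]
      have := ih m (by omega)
      omega

theorem abF_mul : ∀ N a b, a + b = N → abF a * abF b ≤ abF (a + b) := by
  intro N
  induction N using Nat.strong_induction_on with
  | _ N ih =>
    intro a b hab
    by_cases ha : 5 ≤ a
    · obtain ⟨a', rfl⟩ : ∃ a', a = a' + 3 := ⟨a - 3, by omega⟩
      have h1 := ih (a' + b) (by omega) a' b rfl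
      rw [abF_add3 a' (by omega), show a' + 3 + b = (a' + b) + 3 by omega,
        abF_add3 (a' + b) (by omega), mul_assoc]
      exact Nat.mul_le_mul_left 3 h1
    · by_cases hb : 5 ≤ b
      · obtain ⟨b', rfl⟩ : ∃ b', b = b' + 3 := ⟨b - 3, by omega⟩
        have h1 := ih (a + b') (by omega) a b' rfl
        rw [abF_add3 b' (by omega), show a + (b' + 3) = (a + b') + 3 by omega,
          abF_add3 (a + b') (by omega), mul_left_comm]
        exact Nat.mul_le_mul_left 3 h1
      · have ha4 : a ≤ 4 := by omega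
        have hb4 : b ≤ 4 := by omega
        interval_cases a <;> interval_cases b <;> norm_num [abF]

theorem abF_three (k : ℕ) (hk : 1 ≤ k) : abF (3 * k) = 3 ^ k := by
  induction k, hk using Nat.le_induction with
  | base => norm_num [abF]
  | succ k hk ih =>
    rw [show 3 * (k + 1) = 3 * k + 3 by ring, abF_add3 _ (by omega), ih, pow_succ, mul_comm]

theorem abF_three_one (k : ℕ) (hk : 1 ≤ k) : abF (3 * k + 1) = 4 * 3 ^ (k - 1) := by
  induction k, hk using Nat.le_induction with
  | base => norm_num [abF]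
  | succ k hk ih =>
    rw [show 3 * (k + 1) + 1 = (3 * k + 1) + 3 by ring, abF_add3 _ (by omega), ih,
      show k + 1 - 1 = (k - 1) + 1 by omega, pow_succ]
    ring

theorem abF_three_two (k : ℕ) : abF (3 * k + 2) = 2 * 3 ^ k := by
  induction k with
  | zero => norm_num [abF]
  | succ k ih =>
    rw [show 3 * (k + 1) + 2 = (3 * k + 2) + 3 by ring, abF_add3 _ (by omega), ih, pow_succ]
    ring

/-- Restriction of a permutation group to an invariant subset. -/
def abRes {α : Type u} (A : Subgroup (Equiv.Perm α)) (p : α → Prop)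
    (hp : ∀ a ∈ A, ∀ y, p (a y) ↔ p y) : A →* Equiv.Perm {y // p y} where
  toFun a := (a : Equiv.Perm α).subtypePerm (hp a a.2)
  map_one' := by
    ext y
    simp
  map_mul' a b := by
    ext y
    rfl

theorem ab_split {α : Type u} [Finite α] (A : Subgroup (Equiv.Perm α))
    (hA : IsMulCommutative A) (p : α → Prop) (hp : ∀ a ∈ A, ∀ y, p (a y) ↔ p y) :
    ∃ (B : Subgroup (Equiv.Perm {y // p y})) (C : Subgroup (Equiv.Perm {y // ¬ p y})),
      IsMulCommutative B ∧ IsMulCommutative C ∧ Nat.card A ≤ Nat.card B * Nat.card C := by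
  classical
  have hp' : ∀ a ∈ A, ∀ y, ¬ p (a y) ↔ ¬ p y := fun a ha y => not_congr (hp a ha y)
  refine ⟨(abRes A p hp).range, (abRes A (fun y => ¬ p y) hp').range, ?_, ?_, ?_⟩
  · refine ⟨⟨?_⟩⟩
    rintro ⟨_, a, rfl⟩ ⟨_, b, rfl⟩
    apply Subtype.ext
    show abRes A p hp a * abRes A p hp b = abRes A p hp b * abRes A p hp a
    rw [← map_mul, ← map_mul, hA.is_comm.comm a b]
  · refine ⟨⟨?_⟩⟩
    rintro ⟨_, a, rfl⟩ ⟨_, b, rfl⟩
    apply Subtype.ext
    show abRes A _ hp' a * abRes A _ hp' b = abRes A _ hp' b * abRes A _ hp' a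
    rw [← map_mul, ← map_mul, hA.is_comm.comm a b]
  · rw [← Nat.card_prod]
    refine Nat.card_le_card_of_injective
      (fun a : A => ((⟨abRes A p hp a, ⟨a, rfl⟩⟩ : (abRes A p hp).range),
        (⟨abRes A _ hp' a, ⟨a, rfl⟩⟩ : (abRes A (fun y => ¬ p y) hp').range))) ?_
    intro a b hab
    have h1 : abRes A p hp a = abRes A p hp b := congrArg (fun z => (z.1.1 : Equiv.Perm _)) hab
    have h2 : abRes A _ hp' a = abRes A _ hp' b := congrArg (fun z => (z.2.1 : Equiv.Perm _)) hab
    apply Subtype.ext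
    ext y
    by_cases hy : p y
    · have := congrArg (fun f : Equiv.Perm {y // p y} => (f ⟨y, hy⟩ : α)) h1
      simpa [abRes] using this
    · have := congrArg (fun f : Equiv.Perm {y // ¬ p y} => (f ⟨y, hy⟩ : α)) h2
      simpa [abRes] using this

theorem ab_bound : ∀ (n : ℕ) (α : Type u) [Finite α], Nat.card α = n →
    ∀ A : Subgroup (Equiv.Perm α), IsMulCommutative A → Nat.card A ≤ abF n := by
  intro n
  induction n using Nat.strong_induction_on with
  | _ n ih =>
    intro α _ hα A hA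
    classical
    rcases isEmpty_or_nonempty α with hemp | ⟨⟨x⟩⟩
    · have h1 : Nat.card A = 1 := by
        rw [Nat.card_eq_one_iff_unique]
        exact ⟨⟨fun a b => Subtype.ext (Equiv.ext fun y => (hemp.false y).elim)⟩, ⟨1⟩⟩
      rw [h1]
      have h2 : Nat.card α = 0 := Nat.card_of_isEmpty
      rw [← hα, h2]
      norm_num [abF]
    · obtain ⟨p, hpdef⟩ : ∃ p : α → Prop, p = fun y => ∃ a ∈ A, a x = y := ⟨_, rfl⟩
      have hp : ∀ a ∈ A, ∀ y, p (a y) ↔ p y := by
        intro a ha y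
        rw [hpdef]
        constructor
        · rintro ⟨b, hb, hby⟩
          refine ⟨a⁻¹ * b, A.mul_mem (A.inv_mem ha) hb, ?_⟩
          rw [Equiv.Perm.mul_apply, hby]
          simp
        · rintro ⟨b, hb, rfl⟩
          exact ⟨a * b, A.mul_mem ha hb, rfl⟩
      have hx : p x := by
        rw [hpdef]
        exact ⟨1, A.one_mem, rfl⟩
      by_cases hO : ∀ y, p y
      · have hinj : Function.Injective (fun a : A => (a : Equiv.Perm α) x) := by
          intro a b hab
          apply Subtype.ext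
          ext y
          have hy := hO y
          rw [hpdef] at hy
          obtain ⟨c, hc, rfl⟩ := hy
          have h1 := hA.is_comm.comm a ⟨c, hc⟩
          have h2 := hA.is_comm.comm b ⟨c, hc⟩
          have h1' : (a : Equiv.Perm α) * c = c * a := congrArg Subtype.val h1
          have h2' : (b : Equiv.Perm α) * c = c * b := congrArg Subtype.val h2
          have e1 : (a : Equiv.Perm α) (c x) = c ((a : Equiv.Perm α) x) := by
            rw [← Equiv.Perm.mul_apply, h1', Equiv.Perm.mul_apply]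
          have e2 : (b : Equiv.Perm α) (c x) = c ((b : Equiv.Perm α) x) := by
            rw [← Equiv.Perm.mul_apply, h2', Equiv.Perm.mul_apply]
          rw [e1, e2]
          exact congrArg c hab
        calc Nat.card A ≤ Nat.card α := Nat.card_le_card_of_injective _ hinj
          _ = n := hα
          _ ≤ abF n := abF_ge n
      · push Not at hO
        obtain ⟨z, hz⟩ := hO
        obtain ⟨B, C, hB, hC, hle⟩ := ab_split A hA p hp
        have hsum : Nat.card {y // p y} + Nat.card {y // ¬ p y} = n := by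
          rw [← hα, ← Nat.card_sum]
          exact Nat.card_congr (Equiv.sumCompl p)
        have h1 : 0 < Nat.card {y // p y} := by
          haveI : Nonempty {y // p y} := ⟨⟨x, hx⟩⟩
          exact Nat.card_pos
        have h2 : 0 < Nat.card {y // ¬ p y} := by
          haveI : Nonempty {y // ¬ p y} := ⟨⟨z, hz⟩⟩
          exact Nat.card_pos
        have hB' := ih _ (by omega) {y // p y} rfl B hB
        have hC' := ih _ (by omega) {y // ¬ p y} rfl C hC
        calc Nat.card A ≤ Nat.card B * Nat.card C := hle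
          _ ≤ abF (Nat.card {y // p y}) * abF (Nat.card {y // ¬ p y}) :=
            Nat.mul_le_mul hB' hC'
          _ ≤ abF (Nat.card {y // p y} + Nat.card {y // ¬ p y}) := abF_mul _ _ _ rfl
          _ = abF n := by rw [hsum]

theorem ab_exists {H : Type} [CommGroup H] [Finite H] {β : Type} [Fintype β]
    (φ : H →* Equiv.Perm β) (hφ : Function.Injective φ) (n : ℕ) (hn : Fintype.card β = n) :
    ∃ A : Subgroup (Equiv.Perm (Fin n)), IsMulCommutative A ∧ Nat.card A = Nat.card H := by
  classical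
  obtain ⟨e⟩ : Nonempty (β ≃ Fin n) := ⟨Fintype.equivFinOfCardEq hn⟩
  obtain ⟨ψ, hψ⟩ : ∃ ψ : H →* Equiv.Perm (Fin n), Function.Injective ψ :=
    ⟨e.permCongrHom.toMonoidHom.comp φ, e.permCongrHom.injective.comp hφ⟩
  refine ⟨ψ.range, ⟨⟨?_⟩⟩, ?_⟩
  · rintro ⟨_, a, rfl⟩ ⟨_, b, rfl⟩
    apply Subtype.ext
    show ψ a * ψ b = ψ b * ψ a
    rw [← map_mul, ← map_mul, mul_comm]
  · exact Nat.card_congr (MonoidHom.ofInjective hψ).symm.toEquiv

/-- The action hom of `(Fin k → C₃)` on `Fin k × C₃`. -/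
def abPhi (k : ℕ) : (Fin k → Multiplicative (ZMod 3)) →*
    Equiv.Perm (Fin k × Multiplicative (ZMod 3)) where
  toFun c := Equiv.prodShear (Equiv.refl _) (fun i => Equiv.mulLeft (c i))
  map_one' := by
    ext y <;> simp
  map_mul' c d := by
    ext y <;> simp [mul_assoc]

theorem abPhi_inj (k : ℕ) : Function.Injective (abPhi k) := by
  intro c d hcd
  funext i
  have := congrArg (fun f : Equiv.Perm (Fin k × Multiplicative (ZMod 3)) => (f (i, 1)).2) hcd
  simpa [abPhi] using this

theorem ab_ex0 (k : ℕ) : ∃ A : Subgroup (Equiv.Perm (Fin (3 * k))),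
    IsMulCommutative A ∧ Nat.card A = 3 ^ k := by
  obtain ⟨A, hA, hc⟩ := ab_exists (abPhi k) (abPhi_inj k) (3 * k) (by
    simp [mul_comm])
  refine ⟨A, hA, ?_⟩
  rw [hc, Nat.card_eq_fintype_card]
  simp

theorem ab_ex (k : ℕ) (G : Type) [CommGroup G] [Fintype G] (r : ℕ)
    (hr : Fintype.card G = r) (n : ℕ) (hn : 3 * k + r = n) :
    ∃ A : Subgroup (Equiv.Perm (Fin n)),
    IsMulCommutative A ∧ Nat.card A = 3 ^ k * r := by
  classical
  obtain ⟨A, hA, hc⟩ := ab_exists
    ((Equiv.Perm.sumCongrHom _ _).comp ((abPhi k).prodMap (MulAction.toPermHom G G)))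
    (Equiv.Perm.sumCongrHom_injective.comp
      (Function.Injective.prodMap (abPhi_inj k) MulAction.toPerm_injective)) n (by
    simp [mul_comm, hr, ← hn])
  refine ⟨A, hA, ?_⟩
  rw [hc, Nat.card_eq_fintype_card]
  simp [hr]

theorem ab_main (k : ℕ) (hk : 1 ≤ k) :
    IsGreatest {c : ℕ | ∃ A : Subgroup (Equiv.Perm (Fin (3 * k))),
      IsMulCommutative A ∧ Nat.card A = c} (3 ^ k) ∧
    IsGreatest {c : ℕ | ∃ A : Subgroup (Equiv.Perm (Fin (3 * k + 1))),
      IsMulCommutative A ∧ Nat.card A = c} (4 * 3 ^ (k - 1)) ∧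
    IsGreatest {c : ℕ | ∃ A : Subgroup (Equiv.Perm (Fin (3 * k + 2))),
      IsMulCommutative A ∧ Nat.card A = c} (2 * 3 ^ k) := by
  refine ⟨⟨ab_ex0 k, ?_⟩, ⟨?_, ?_⟩, ⟨?_, ?_⟩⟩
  · rintro c ⟨A, hA, rfl⟩
    have := ab_bound (3 * k) (Fin (3 * k)) (by simp) A hA
    rwa [abF_three k hk] at this
  · obtain ⟨A, hA, hc⟩ := ab_ex (k - 1) (Multiplicative (ZMod 4)) 4 (by simp) (3 * k + 1)
      (by omega)
    exact ⟨A, hA, by rw [hc, mul_comm]⟩
  · rintro c ⟨A, hA, rfl⟩
    have := ab_bound (3 * k + 1) (Fin (3 * k + 1)) (by simp) A hA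
    rwa [abF_three_one k hk] at this
  · obtain ⟨A, hA, hc⟩ := ab_ex k (Multiplicative (ZMod 2)) 2 (by simp) (3 * k + 2) rfl
    exact ⟨A, hA, by rw [hc, mul_comm]⟩
  · rintro c ⟨A, hA, rfl⟩
    have := ab_bound (3 * k + 2) (Fin (3 * k + 2)) (by simp) A hA
    rwa [abF_three_two k] at this

end AbPerm

end Cfsg.Agent.Lib.Helper6
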