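import Mathlib
import Cfsg.Prelude.Def_Blocks
import Cfsg.Agent.Lib.Helper6.BlockReal2

set_option autoImplicit false

namespace Cfsg.Agent.Lib.Helper6

open Cfsg.Agent.Lib.Lead Cfsg.Agent.Lib.Helper2
open scoped ComplexConjugate

section BlockReal3

/-- Power maps with exponent prime to the group order preserve centralizers. -/
theorem centralizer_pow_coprime {G : Type*} [Group G] [Finite G] (k : ℕ)
    (hk : Nat.Coprime k (Nat.card G)) (g : G) :
    Subgroup.centralizer ({g ^ k} : Set G) = Subgroup.centralizer ({g} : Set G) := by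
  have hinv : (g ^ k) ^ ((Nat.card G).gcdB k) = g := (powCoprime hk.symm).left_inv g
  ext h
  rw [Subgroup.mem_centralizer_iff, Subgroup.mem_centralizer_iff]
  constructor
  · intro h1 x hx
    rw [Set.mem_singleton_iff.1 hx]
    have h2 : Commute (g ^ k) h := h1 (g ^ k) (Set.mem_singleton _)
    have h3 : Commute ((g ^ k) ^ ((Nat.card G).gcdB k)) h := h2.zpow_left _
    rw [hinv] at h3
    exact h3.eq
  · intro h1 x hx
    rw [Set.mem_singleton_iff.1 hx]
    have h2 : Commute g h := h1 g (Set.mem_singleton _)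
    exact (h2.pow_left k).eq

/-- Idempotent coefficients of a set of characters stable under a power map prime to the
group order are invariant under that power map. -/
theorem pow_stable_coeff {G : Type*} [Group G] [Fintype G] (k : ℕ)
    (hk : Nat.Coprime k (Nat.card G)) (B : Set (Cfsg.IrrCharacter G))
    (hstab : ∀ χ ∈ B, ∃ ψ ∈ B, ∀ g : G, (ψ : G → ℂ) g = (χ : G → ℂ) (g ^ k)) (g : G) :
    Cfsg.blockCoeff B (g ^ k) = Cfsg.blockCoeff B g := by
  classical
  haveI : Finite (Cfsg.IrrCharacter G) := irr_finite'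
  unfold Cfsg.blockCoeff
  congr 1
  choose! f hfB hf using hstab
  have hfin : B.Finite := Set.toFinite B
  rw [finsum_mem_eq_finite_toFinset_sum _ hfin, finsum_mem_eq_finite_toFinset_sum _ hfin]
  have hinj : Set.InjOn f (hfin.toFinset : Set (Cfsg.IrrCharacter G)) := by
    intro χ₁ h₁ χ₂ h₂ h12
    have h₁' : χ₁ ∈ B := hfin.mem_toFinset.1 h₁
    have h₂' : χ₂ ∈ B := hfin.mem_toFinset.1 h₂
    apply Subtype.ext
    funext x
    have hx : ((powCoprime hk.symm).symm x) ^ k = x := (powCoprime hk.symm).right_inv x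
    rw [← hx, ← hf χ₁ h₁', ← hf χ₂ h₂', h12]
  have himg : (hfin.toFinset).image f = hfin.toFinset := by
    apply Finset.eq_of_subset_of_card_le
    · intro ψ hψ
      obtain ⟨χ, hχ, rfl⟩ := Finset.mem_image.1 hψ
      rw [Set.Finite.mem_toFinset] at hχ ⊢
      exact hfB χ hχ
    · rw [Finset.card_image_of_injOn hinj]
  conv_rhs => rw [← himg]
  rw [Finset.sum_image hinj]
  apply Finset.sum_congr rfl
  intro χ hχ
  rw [Set.Finite.mem_toFinset] at hχ
  rw [hf χ hχ 1, hf χ hχ g, one_pow]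

/-- A `2`-block of full defect stable under a power map inverting the elements of odd order
is the principal block. -/
theorem galois_full_principal {G : Type*} [Group G] [Fintype G] (M : Ideal Cfsg.AlgInt)
    (hM : Cfsg.IsPModular 2 M) (k : ℕ) (hk : Nat.Coprime k (Nat.card G))
    (hk₂ : ∀ g : G, Odd (orderOf g) → g ^ k = g⁻¹) (B : Set (Cfsg.IrrCharacter G))
    (hB : Cfsg.IsPBlock M B) (hdef : Cfsg.blockDefect 2 B = (Nat.card G).factorization 2)
    (hstab : ∀ χ ∈ B, ∃ ψ ∈ B, ∀ g : G, (ψ : G → ℂ) g = (χ : G → ℂ) (g ^ k)) :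
    B = Cfsg.principalBlock M G := by
  classical
  haveI : Fact (Nat.Prime 2) := ⟨Nat.prime_two⟩
  haveI : Finite (Cfsg.IrrCharacter G) := irr_finite'
  letI := Fintype.ofFinite (Cfsg.IrrCharacter G)
  have hMp := hM.2.1.isPrime
  have hM1 : (1 : Cfsg.AlgInt) ∉ M := (Ideal.ne_top_iff_one M).1 hMp.ne_top
  have hcl := block_closed M hMp B hB
  have hcoeff := pow_stable_coeff k hk B hstab
  -- a character of odd degree
  obtain ⟨χ, hχB, hχht⟩ := exists_height_zero M hMp 2 B hB
  have hχ1 := isIrrCharacter_one_eq_charDegree χ.2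
  have hdpos := charDegree_pos_of_irr χ.2
  have hdvd : Cfsg.charDegree (χ : G → ℂ) ∣ Nat.card G := irr_degree_dvd_card χ _ hχ1
  have hle : (Cfsg.charDegree (χ : G → ℂ)).factorization 2 ≤ (Nat.card G).factorization 2 :=
    (Nat.factorization_le_iff_dvd hdpos.ne' Nat.card_pos.ne').2 hdvd 2
  have hodd : ¬ 2 ∣ Cfsg.charDegree (χ : G → ℂ) := by
    unfold Cfsg.blockDefect at hdef
    rw [← hχht] at hdef
    intro h2
    have := Nat.Prime.factorization_pos_of_dvd Nat.prime_two hdpos.ne' h2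
    omega
  have hχne : (χ : G → ℂ) 1 ≠ 0 := by
    rw [hχ1]
    exact_mod_cast hdpos.ne'
  obtain ⟨one, hone⟩ : ∃ one : Cfsg.IrrCharacter G, (one : G → ℂ) = fun _ => (1 : ℂ) :=
    ⟨⟨fun _ => 1, isIrrCharacter_one G⟩, rfl⟩
  have hone_real : ∀ g : G, ((one : G → ℂ) g).im = 0 := by
    intro g
    rw [hone]
    exact Complex.one_im
  obtain ⟨χ₀, hB0⟩ := hB
  suffices h : one ∈ B by
    rw [hB0] at h ⊢
    have h2 : Cfsg.SameBlock M (χ₀ : G → ℂ) (fun _ : G => (1 : ℂ)) := by
      rw [← hone]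
      exact h
    ext ψ
    constructor
    · intro hψ
      exact sb_trans hMp (sb_symm hMp h2) hψ
    · intro hψ
      exact sb_trans hMp h2 hψ
  by_contra hnot
  have h1 := bb_idem_value B one
  rw [if_neg hnot, bcf_class_sum _ (fun r c => bb_coeff_class B r c) one] at h1
  have h2 := bb_idem_value B χ
  rw [if_pos hχB, bcf_class_sum _ (fun r c => bb_coeff_class B r c) χ] at h2
  obtain ⟨T, hT⟩ : ∃ T : ConjClasses G → ℂ, ∀ C, T C = Cfsg.blockCoeff B (Quotient.out C)
      * (Cfsg.centralChar (χ : G → ℂ) (Quotient.out C)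
        - Cfsg.centralChar (one : G → ℂ) (Quotient.out C)) := ⟨fun C => _, fun _ => rfl⟩
  have hsum : ∑ C : ConjClasses G, T C = 1 := by
    rw [Finset.sum_congr rfl (fun C _ => hT C)]
    simp only [mul_sub]
    rw [Finset.sum_sub_distrib, h1, h2, sub_zero]
  have hTlr : ∀ C, Cfsg.MemLocalRing M (T C) := by
    intro C
    rw [hT]
    have ha := (mem_lrSub hMp _).2 (osima_closed 2 M hM B hcl (Quotient.out C))
    have hb := (mem_lrSub hMp _).2 (lr_int 2 M hM (cc_isIntegral χ (Quotient.out C)))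
    have hc := (mem_lrSub hMp _).2 (lr_int 2 M hM (cc_isIntegral one (Quotient.out C)))
    exact (mem_lrSub hMp _).1 ((lrSub M hMp).mul_mem ha ((lrSub M hMp).sub_mem hb hc))
  have hTrep : ∀ (C : ConjClasses G) (g : G), ConjClasses.mk g = C →
      T C = Cfsg.blockCoeff B g * (Cfsg.centralChar (χ : G → ℂ) g
        - Cfsg.centralChar (one : G → ℂ) g) := by
    intro C g hg
    have hconj' : IsConj (Quotient.out C) g := by
      rw [← ConjClasses.mk_eq_mk_iff_isConj, hg]
      exact Quotient.out_eq C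
    rw [hT, cc_conj_invariant χ hconj', cc_conj_invariant one hconj']
    obtain ⟨c, hc⟩ := isConj_iff.1 hconj'
    rw [← hc, bb_coeff_class]
  obtain ⟨ι, hι⟩ : ∃ ι : ConjClasses G → ConjClasses G,
      ∀ C, ι C = ConjClasses.mk (Quotient.out C)⁻¹ := ⟨fun C => _, fun _ => rfl⟩
  have hιmk : ∀ g : G, ι (ConjClasses.mk g) = ConjClasses.mk g⁻¹ := by
    intro g
    rw [hι, ConjClasses.mk_eq_mk_iff_isConj]
    have h3 : IsConj (Quotient.out (ConjClasses.mk g)) g := by
      rw [← ConjClasses.mk_eq_mk_iff_isConj]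
      exact Quotient.out_eq _
    obtain ⟨c, hc⟩ := isConj_iff.1 h3
    rw [isConj_iff]
    refine ⟨c, ?_⟩
    rw [← conj_inv, hc]
  have hιι : ∀ C, ι (ι C) = C := by
    intro C
    rw [hι C, hιmk, inv_inv]
    exact Quotient.out_eq C
  have hpair : ∀ C, Cfsg.MemLocalIdeal M (T C + T (ι C)) := by
    intro C
    obtain ⟨g, hg⟩ : ∃ g : G, g = Quotient.out C := ⟨_, rfl⟩
    have hTC : T C = Cfsg.blockCoeff B g * (Cfsg.centralChar (χ : G → ℂ) g
        - Cfsg.centralChar (one : G → ℂ) g) := by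
      rw [hT, hg]
    have hTι : T (ι C) = Cfsg.blockCoeff B g⁻¹ * (Cfsg.centralChar (χ : G → ℂ) g⁻¹
        - Cfsg.centralChar (one : G → ℂ) g⁻¹) :=
      hTrep (ι C) g⁻¹ (by rw [hι, hg])
    by_cases h2o : 2 ∣ orderOf g
    · rw [hTC, hTι, blockCoeff_psingular 2 M hM B hcl g h2o,
        blockCoeff_psingular 2 M hM B hcl g⁻¹ (by rw [orderOf_inv]; exact h2o), zero_mul,
        zero_mul, add_zero]
      exact li_zero M hM1
    · have hoddg : Odd (orderOf g) :=
        Nat.not_even_iff_odd.1 (fun h => h2o (even_iff_two_dvd.1 h))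
      have hgk := hk₂ g hoddg
      obtain ⟨ψ, hψB, hψ⟩ := hstab χ hχB
      have hsame : Cfsg.SameBlock M (χ : G → ℂ) (ψ : G → ℂ) := by
        have h3 : χ ∈ Cfsg.blockOf M (χ₀ : G → ℂ) := by
          rw [← hB0]
          exact hχB
        have h4 : ψ ∈ Cfsg.blockOf M (χ₀ : G → ℂ) := by
          rw [← hB0]
          exact hψB
        exact sb_trans hMp (sb_symm hMp h3) h4
      have hccψ : Cfsg.centralChar (χ : G → ℂ) g⁻¹ = Cfsg.centralChar (ψ : G → ℂ) g := by
        unfold Cfsg.centralChar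
        rw [← hgk, centralizer_pow_coprime k hk g, hψ g, hψ 1, one_pow]
      have hcc1 : Cfsg.centralChar (one : G → ℂ) g⁻¹ = Cfsg.centralChar (one : G → ℂ) g :=
        cc_inv_real one hone_real g
      have ha : Cfsg.blockCoeff B g⁻¹ = Cfsg.blockCoeff B g := by
        rw [← hgk]
        exact hcoeff g
      have h3 : T C + T (ι C) = T C * ((2 : ℕ) : ℂ) - Cfsg.blockCoeff B g
          * (Cfsg.centralChar (χ : G → ℂ) g - Cfsg.centralChar (ψ : G → ℂ) g) := by
        rw [hTι, hTC, ha, hccψ, hcc1]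
        push_cast
        ring
      rw [h3]
      exact li_sub hMp (li_mul hMp (hTlr C) (li_natCast_p 2 M hM))
        (li_mul hMp (osima_closed 2 M hM B hcl g) (hsame g))
  have hfix : ∀ C, ι C = C → Cfsg.MemLocalIdeal M (T C) := by
    intro C hC
    obtain ⟨g, hg⟩ : ∃ g : G, g = Quotient.out C := ⟨_, rfl⟩
    have hreal : IsConj g g⁻¹ := by
      rw [← ConjClasses.mk_eq_mk_iff_isConj, hg, ← hι C, hC]
      exact Quotient.out_eq C
    rw [hT, ← hg]
    by_cases h2o : 2 ∣ orderOf g
    · rw [blockCoeff_psingular 2 M hM B hcl g h2o, zero_mul]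
      exact li_zero M hM1
    · by_cases hg1 : g = 1
      · have h3 : Cfsg.centralChar (χ : G → ℂ) g - Cfsg.centralChar (one : G → ℂ) g = 0 := by
          unfold Cfsg.centralChar
          simp only [hone, hg1]
          rw [mul_div_assoc, div_self hχne, mul_one, div_one, sub_self]
        rw [h3, mul_zero]
        exact li_zero M hM1
      · have heven := real_class_even g h2o hg1 hreal
        rw [card_classFinset] at heven
        obtain ⟨j, hj⟩ := heven
        apply li_mul hMp (osima_closed 2 M hM B hcl g)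
        have h4 : Cfsg.centralChar (χ : G → ℂ) g - Cfsg.centralChar (one : G → ℂ) g
            = ((χ : G → ℂ) g / (χ : G → ℂ) 1 - 1) * (j : ℂ) * ((2 : ℕ) : ℂ) := by
          unfold Cfsg.centralChar
          simp only [hone, hj, mul_one, div_one]
          push_cast
          ring
        rw [h4]
        have hb : (χ : G → ℂ) g / (χ : G → ℂ) 1 ∈ lrSub M hMp := by
          rw [hχ1]
          exact (mem_lrSub hMp _).2 (lr_div_nat 2 M hM (bcf_irr_isIntegral χ.2 g) _ hodd)
        have hc : ((χ : G → ℂ) g / (χ : G → ℂ) 1 - 1) * (j : ℂ) ∈ lrSub M hMp :=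
          (lrSub M hMp).mul_mem ((lrSub M hMp).sub_mem hb (lrSub M hMp).one_mem)
            (natCast_mem _ j)
        exact li_mul hMp ((mem_lrSub hMp _).1 hc) (li_natCast_p 2 M hM)
  obtain ⟨T', hT'⟩ : ∃ T' : ConjClasses G → lrSub M hMp,
      ∀ C, ((T' C : lrSub M hMp) : ℂ) = T C :=
    ⟨fun C => ⟨T C, (mem_lrSub hMp _).2 (hTlr C)⟩, fun _ => rfl⟩
  have hzero : ∑ C : ConjClasses G, Ideal.Quotient.mk (liIdeal M hMp) (T' C) = 0 := by
    apply Finset.sum_ninvolution ι
    · intro C
      rw [← map_add, Ideal.Quotient.eq_zero_iff_mem]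
      show Cfsg.MemLocalIdeal M (((T' C + T' (ι C) : lrSub M hMp)) : ℂ)
      have h4 : (((T' C + T' (ι C) : lrSub M hMp)) : ℂ) = T C + T (ι C) := by
        push_cast
        rw [hT', hT']
      rw [h4]
      exact hpair C
    · intro C hne hC
      apply hne
      rw [Ideal.Quotient.eq_zero_iff_mem]
      show Cfsg.MemLocalIdeal M ((T' C : lrSub M hMp) : ℂ)
      rw [hT']
      exact hfix C hC
    · intro C
      exact Finset.mem_univ _
    · intro C
      exact hιι C
  rw [← map_sum, Ideal.Quotient.eq_zero_iff_mem] at hzero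
  have h5 : Cfsg.MemLocalIdeal M ((lrSub M hMp).subtype (∑ C : ConjClasses G, T' C)) := hzero
  rw [map_sum] at h5
  have h6 : ∑ C : ConjClasses G, (lrSub M hMp).subtype (T' C) = 1 := by
    rw [← hsum]
    apply Finset.sum_congr rfl
    intro C _
    exact hT' C
  rw [h6] at h5
  exact li_one M h5

/-- The statement for finite groups. -/
theorem galois_full_main {G : Type*} [Group G] [Finite G] (M : Ideal Cfsg.AlgInt)
    (hM : Cfsg.IsPModular 2 M) (k : ℕ) (hk : Nat.Coprime k (Nat.card G))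
    (hk₂ : ∀ g : G, Odd (orderOf g) → g ^ k = g⁻¹) (B : Set (Cfsg.IrrCharacter G))
    (hB : Cfsg.IsPBlock M B) (hdef : Cfsg.blockDefect 2 B = (Nat.card G).factorization 2)
    (hstab : ∀ χ ∈ B, ∃ ψ ∈ B, ∀ g : G, (ψ : G → ℂ) g = (χ : G → ℂ) (g ^ k)) :
    B = Cfsg.principalBlock M G := by
  letI := Fintype.ofFinite G
  exact galois_full_principal M hM k hk hk₂ B hB hdef hstab

end BlockReal3

end Cfsg.Agent.Lib.Helper6
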