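import Mathlib
import Cfsg.Prelude.Def_Blocks
import Cfsg.Agent.Lib.Lead.CharGallagher2
import Cfsg.Agent.Lib.Lead.CharMGroup
import Cfsg.Agent.Lib.Lead.CharDet
import Cfsg.Agent.Lib.Lead.CharOrtho
import Cfsg.Agent.Lib.Helper6.BlockReal2
import Cfsg.Agent.Lib.Helper6.BlockBr

set_option autoImplicit false

namespace Cfsg.Agent.Lib.Helper6

open Cfsg.Agent.Lib.Lead Cfsg.Agent.Lib.Helper2
open scoped ComplexConjugate

section BlockReal4

/-- A `2`-block closed under complex conjugation that contains a character of odd degree is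
the principal block. -/
theorem real_block_odd_principal {G : Type*} [Group G] [Fintype G] (M : Ideal Cfsg.AlgInt)
    (hM : Cfsg.IsPModular 2 M) (B : Set (Cfsg.IrrCharacter G)) (hB : Cfsg.IsPBlock M B)
    (hconj : ∀ ψ ∈ B, irrConj ψ ∈ B) (χ : Cfsg.IrrCharacter G) (hχB : χ ∈ B)
    (hodd : ¬ 2 ∣ Cfsg.charDegree (χ : G → ℂ)) : B = Cfsg.principalBlock M G := by
  classical
  haveI : Fact (Nat.Prime 2) := ⟨Nat.prime_two⟩
  haveI : Finite (Cfsg.IrrCharacter G) := irr_finite'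
  letI := Fintype.ofFinite (Cfsg.IrrCharacter G)
  have hMp := hM.2.1.isPrime
  have hM1 : (1 : Cfsg.AlgInt) ∉ M := (Ideal.ne_top_iff_one M).1 hMp.ne_top
  have hcl := block_closed M hMp B hB
  have hχ1 := isIrrCharacter_one_eq_charDegree χ.2
  have hdpos := charDegree_pos_of_irr χ.2
  have hχne : (χ : G → ℂ) 1 ≠ 0 := by
    rw [hχ1]
    exact_mod_cast hdpos.ne'
  obtain ⟨one, hone⟩ : ∃ one : Cfsg.IrrCharacter G, (one : G → ℂ) = fun _ => (1 : ℂ) :=
    ⟨⟨fun _ => 1, isIrrCharacter_one G⟩, rfl⟩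
  have hone_real : ∀ g : G, ((one : G → ℂ) g).im = 0 := by
    intro g
    rw [hone]
    exact Complex.one_im
  obtain ⟨χ₀, hB0⟩ := hB
  suffices h : one ∈ B by
    rw [hB0] at h ⊢
    have h2 : Cfsg.SameBlock M (χ₀ : G → ℂ) (fun _ : G => (1 : ℂ)) := by
      rw [← hone]
      exact h
    ext ψ
    constructor
    · intro hψ
      exact sb_trans hMp (sb_symm hMp h2) hψ
    · intro hψ
      exact sb_trans hMp h2 hψ
  by_contra hnot
  have h1 := bb_idem_value B one
  rw [if_neg hnot, bcf_class_sum _ (fun r c => bb_coeff_class B r c) one] at h1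
  have h2 := bb_idem_value B χ
  rw [if_pos hχB, bcf_class_sum _ (fun r c => bb_coeff_class B r c) χ] at h2
  obtain ⟨T, hT⟩ : ∃ T : ConjClasses G → ℂ, ∀ C, T C = Cfsg.blockCoeff B (Quotient.out C)
      * (Cfsg.centralChar (χ : G → ℂ) (Quotient.out C)
        - Cfsg.centralChar (one : G → ℂ) (Quotient.out C)) := ⟨fun C => _, fun _ => rfl⟩
  have hsum : ∑ C : ConjClasses G, T C = 1 := by
    rw [Finset.sum_congr rfl (fun C _ => hT C)]
    simp only [mul_sub]
    rw [Finset.sum_sub_distrib, h1, h2, sub_zero]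
  have hTlr : ∀ C, Cfsg.MemLocalRing M (T C) := by
    intro C
    rw [hT]
    have ha := (mem_lrSub hMp _).2 (osima_closed 2 M hM B hcl (Quotient.out C))
    have hb := (mem_lrSub hMp _).2 (lr_int 2 M hM (cc_isIntegral χ (Quotient.out C)))
    have hc := (mem_lrSub hMp _).2 (lr_int 2 M hM (cc_isIntegral one (Quotient.out C)))
    exact (mem_lrSub hMp _).1 ((lrSub M hMp).mul_mem ha ((lrSub M hMp).sub_mem hb hc))
  have hTrep : ∀ (C : ConjClasses G) (g : G), ConjClasses.mk g = C →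
      T C = Cfsg.blockCoeff B g * (Cfsg.centralChar (χ : G → ℂ) g
        - Cfsg.centralChar (one : G → ℂ) g) := by
    intro C g hg
    have hconj' : IsConj (Quotient.out C) g := by
      rw [← ConjClasses.mk_eq_mk_iff_isConj, hg]
      exact Quotient.out_eq C
    rw [hT, cc_conj_invariant χ hconj', cc_conj_invariant one hconj']
    obtain ⟨c, hc⟩ := isConj_iff.1 hconj'
    rw [← hc, bb_coeff_class]
  obtain ⟨ι, hι⟩ : ∃ ι : ConjClasses G → ConjClasses G,
      ∀ C, ι C = ConjClasses.mk (Quotient.out C)⁻¹ := ⟨fun C => _, fun _ => rfl⟩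
  have hιmk : ∀ g : G, ι (ConjClasses.mk g) = ConjClasses.mk g⁻¹ := by
    intro g
    rw [hι, ConjClasses.mk_eq_mk_iff_isConj]
    have h3 : IsConj (Quotient.out (ConjClasses.mk g)) g := by
      rw [← ConjClasses.mk_eq_mk_iff_isConj]
      exact Quotient.out_eq _
    obtain ⟨c, hc⟩ := isConj_iff.1 h3
    rw [isConj_iff]
    refine ⟨c, ?_⟩
    rw [← conj_inv, hc]
  have hιι : ∀ C, ι (ι C) = C := by
    intro C
    rw [hι C, hιmk, inv_inv]
    exact Quotient.out_eq C
  have hTι : ∀ C, T (ι C) = Cfsg.blockCoeff B (Quotient.out C)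
      * (Cfsg.centralChar (irrConj χ : G → ℂ) (Quotient.out C)
        - Cfsg.centralChar (one : G → ℂ) (Quotient.out C)) := by
    intro C
    rw [hTrep (ι C) (Quotient.out C)⁻¹ (hι C).symm, conj_closed_coeff_inv B hconj, cc_irrConj,
      cc_inv_real one hone_real]
  have hsame : Cfsg.SameBlock M (χ : G → ℂ) (irrConj χ : G → ℂ) := by
    have h3 : χ ∈ Cfsg.blockOf M (χ₀ : G → ℂ) := by
      rw [← hB0]
      exact hχB
    have h4 : irrConj χ ∈ Cfsg.blockOf M (χ₀ : G → ℂ) := by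
      rw [← hB0]
      exact hconj χ hχB
    exact sb_trans hMp (sb_symm hMp h3) h4
  have hpair : ∀ C, Cfsg.MemLocalIdeal M (T C + T (ι C)) := by
    intro C
    have h3 : T C + T (ι C) = T C * ((2 : ℕ) : ℂ) - Cfsg.blockCoeff B (Quotient.out C)
        * (Cfsg.centralChar (χ : G → ℂ) (Quotient.out C)
          - Cfsg.centralChar (irrConj χ : G → ℂ) (Quotient.out C)) := by
      rw [hTι, hT]
      push_cast
      ring
    rw [h3]
    exact li_sub hMp (li_mul hMp (hTlr C) (li_natCast_p 2 M hM))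
      (li_mul hMp (osima_closed 2 M hM B hcl (Quotient.out C)) (hsame (Quotient.out C)))
  have hfix : ∀ C, ι C = C → Cfsg.MemLocalIdeal M (T C) := by
    intro C hC
    obtain ⟨g, hg⟩ : ∃ g : G, g = Quotient.out C := ⟨_, rfl⟩
    have hreal : IsConj g g⁻¹ := by
      rw [← ConjClasses.mk_eq_mk_iff_isConj, hg, ← hι C, hC]
      exact Quotient.out_eq C
    rw [hT, ← hg]
    by_cases h2o : 2 ∣ orderOf g
    · rw [blockCoeff_psingular 2 M hM B hcl g h2o, zero_mul]
      exact li_zero M hM1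
    · by_cases hg1 : g = 1
      · have h3 : Cfsg.centralChar (χ : G → ℂ) g - Cfsg.centralChar (one : G → ℂ) g = 0 := by
          unfold Cfsg.centralChar
          simp only [hone, hg1]
          rw [mul_div_assoc, div_self hχne, mul_one, div_one, sub_self]
        rw [h3, mul_zero]
        exact li_zero M hM1
      · have heven := real_class_even g h2o hg1 hreal
        rw [card_classFinset] at heven
        obtain ⟨k, hk⟩ := heven
        apply li_mul hMp (osima_closed 2 M hM B hcl g)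
        have h4 : Cfsg.centralChar (χ : G → ℂ) g - Cfsg.centralChar (one : G → ℂ) g
            = ((χ : G → ℂ) g / (χ : G → ℂ) 1 - 1) * (k : ℂ) * ((2 : ℕ) : ℂ) := by
          unfold Cfsg.centralChar
          simp only [hone, hk, mul_one, div_one]
          push_cast
          ring
        rw [h4]
        have hb : (χ : G → ℂ) g / (χ : G → ℂ) 1 ∈ lrSub M hMp := by
          rw [hχ1]
          exact (mem_lrSub hMp _).2 (lr_div_nat 2 M hM (bcf_irr_isIntegral χ.2 g) _ hodd)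
        have hc : ((χ : G → ℂ) g / (χ : G → ℂ) 1 - 1) * (k : ℂ) ∈ lrSub M hMp :=
          (lrSub M hMp).mul_mem ((lrSub M hMp).sub_mem hb (lrSub M hMp).one_mem)
            (natCast_mem _ k)
        exact li_mul hMp ((mem_lrSub hMp _).1 hc) (li_natCast_p 2 M hM)
  obtain ⟨T', hT'⟩ : ∃ T' : ConjClasses G → lrSub M hMp,
      ∀ C, ((T' C : lrSub M hMp) : ℂ) = T C :=
    ⟨fun C => ⟨T C, (mem_lrSub hMp _).2 (hTlr C)⟩, fun _ => rfl⟩
  have hzero : ∑ C : ConjClasses G, Ideal.Quotient.mk (liIdeal M hMp) (T' C) = 0 := by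
    apply Finset.sum_ninvolution ι
    · intro C
      rw [← map_add, Ideal.Quotient.eq_zero_iff_mem]
      show Cfsg.MemLocalIdeal M (((T' C + T' (ι C) : lrSub M hMp)) : ℂ)
      have h4 : (((T' C + T' (ι C) : lrSub M hMp)) : ℂ) = T C + T (ι C) := by
        push_cast
        rw [hT', hT']
      rw [h4]
      exact hpair C
    · intro C hne hC
      apply hne
      rw [Ideal.Quotient.eq_zero_iff_mem]
      show Cfsg.MemLocalIdeal M ((T' C : lrSub M hMp) : ℂ)
      rw [hT']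
      exact hfix C hC
    · intro C
      exact Finset.mem_univ _
    · intro C
      exact hιι C
  rw [← map_sum, Ideal.Quotient.eq_zero_iff_mem] at hzero
  have h5 : Cfsg.MemLocalIdeal M ((lrSub M hMp).subtype (∑ C : ConjClasses G, T' C)) := hzero
  rw [map_sum] at h5
  have h6 : ∑ C : ConjClasses G, (lrSub M hMp).subtype (T' C) = 1 := by
    rw [← hsum]
    apply Finset.sum_congr rfl
    intro C _
    exact hT' C
  rw [h6] at h5
  exact li_one M h5

/-- A root of unity of `2`-power order is congruent to `1` modulo a prime over `2`. -/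
theorem two_pow_root_li (M : Ideal Cfsg.AlgInt) (hM : Cfsg.IsPModular 2 M) (s : ℕ) :
    ∀ a : ℂ, Cfsg.MemLocalRing M a → a ^ (2 ^ s) = 1 → Cfsg.MemLocalIdeal M (a - 1) := by
  have hMp := hM.2.1.isPrime
  induction s with
  | zero =>
    intro a _ ha
    rw [pow_zero, pow_one] at ha
    rw [ha, sub_self]
    exact li_zero M ((Ideal.ne_top_iff_one M).1 hMp.ne_top)
  | succ s ih =>
    intro a hlr ha
    have h1 : (a ^ 2) ^ (2 ^ s) = 1 := by
      rw [← pow_mul, ← pow_succ']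
      exact ha
    have ha' : a ∈ lrSub M hMp := (mem_lrSub hMp _).2 hlr
    have h2 := ih (a ^ 2) ((mem_lrSub hMp _).1 ((lrSub M hMp).pow_mem ha' 2)) h1
    have h3 : a ^ 2 - 1 = (a - 1) * (a + 1) := by ring
    rw [h3] at h2
    rcases li_prime hMp ((mem_lrSub hMp _).1 ((lrSub M hMp).sub_mem ha' (lrSub M hMp).one_mem))
      ((mem_lrSub hMp _).1 ((lrSub M hMp).add_mem ha' (lrSub M hMp).one_mem)) h2 with h | h
    · exact h
    · have h4 : a - 1 = (a + 1) - ((2 : ℕ) : ℂ) := by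
        push_cast
        ring
      rw [h4]
      exact li_sub hMp h (li_natCast_p 2 M hM)

/-- A real-valued irreducible character of odd degree of a normal subgroup that extends to
the group has an extension in the principal `2`-block. -/
theorem real_ext_principal {G : Type*} [Group G] [Fintype G] (N : Subgroup G) [hN : N.Normal]
    [Fintype N] (M : Ideal Cfsg.AlgInt) (hM : Cfsg.IsPModular 2 M) (θ : Cfsg.IrrCharacter N)
    (hreal : ∀ n : N, ((θ : N → ℂ) n).im = 0) (hodd : Odd (Cfsg.charDegree (θ : N → ℂ)))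
    (η₀ : Cfsg.IrrCharacter G) (hη₀ : ∀ n : N, (η₀ : G → ℂ) n = (θ : N → ℂ) n) :
    ∃ η : Cfsg.IrrCharacter G, (∀ n : N, (η : G → ℂ) n = (θ : N → ℂ) n) ∧
      η ∈ Cfsg.principalBlock M G := by
  classical
  have hMp := hM.2.1.isPrime
  have hresN : (fun n : N => (η₀ : G → ℂ) n) = (θ : N → ℂ) := funext hη₀
  have hχN : IsIrrCharacter N (fun n : N => (η₀ : G → ℂ) n) := by
    rw [hresN]
    exact θ.2
  have hconjres : (fun n : N => (irrConj η₀ : G → ℂ) n) = (θ : N → ℂ) := by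
    funext n
    rw [irrConj_apply, hη₀ n, Complex.conj_eq_iff_im.2 (hreal n)]
  have hinner : Cfsg.classInner (fun n : N => (irrConj η₀ : G → ℂ) n)
      (fun n : N => (η₀ : G → ℂ) n) ≠ 0 := by
    rw [hconjres, hresN, irr_orthonormal θ.2 θ.2, if_pos rfl]
    exact one_ne_zero
  obtain ⟨β₀, hβ0, hβ⟩ := (gallagher_coset_avg N η₀.2 hχN (irrConj η₀).2).2.2.1 hinner
  have hη1 : (η₀ : G → ℂ) 1 ≠ 0 := irr_one_ne_zero η₀.2
  have hβ1 : (β₀ : G → ℂ) 1 = 1 := by
    have h1 := congrFun hβ 1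
    rw [Pi.mul_apply, irrConj_apply, irr_one_conj] at h1
    have h2 : ((β₀ : G → ℂ) 1 - 1) * (η₀ : G → ℂ) 1 = 0 := by
      rw [sub_mul, one_mul, ← h1, sub_self]
    rcases mul_eq_zero.1 h2 with h | h
    · exact sub_eq_zero.1 h
    · exact absurd h hη1
  obtain ⟨lam, hlam⟩ := exists_hom_of_linear β₀.2 hβ1
  have hlamN : ∀ n : N, ((lam (n : G) : ℂˣ) : ℂ) = 1 := by
    intro n
    have h1 := irr_coset_const N β₀.2 hβ0 n 1
    rw [mul_one, hβ1, hlam] at h1
    exact h1
  obtain ⟨s, m, hmodd, hGsm⟩ := Nat.exists_eq_two_pow_mul_odd (Nat.card_pos (α := G)).ne'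
  obtain ⟨r, hr⟩ := hmodd
  have hGne : 2 ^ s * m ≠ 0 := by
    rw [← hGsm]
    exact (Nat.card_pos (α := G)).ne'
  have hlampow : ∀ g : G, ((lam g : ℂˣ) : ℂ) ^ (2 ^ s * m) = 1 := by
    intro g
    rw [← hGsm, ← Units.val_pow_eq_pow_val, ← map_pow, pow_card_eq_one', map_one,
      Units.val_one]
  have hnorm : ∀ g : G, conj ((lam g : ℂˣ) : ℂ) * ((lam g : ℂˣ) : ℂ) = 1 := by
    intro g
    have h1 : ‖((lam g : ℂˣ) : ℂ)‖ = 1 := Complex.norm_eq_one_of_pow_eq_one (hlampow g) hGne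
    rw [Complex.conj_mul', h1]
    norm_num
  obtain ⟨hirr, -⟩ := twist_linear η₀.2 (lam ^ (r + 1)) (Cfsg.charDegree (η₀ : G → ℂ))
    (isIrrCharacter_one_eq_charDegree η₀.2)
  obtain ⟨η, hη⟩ : ∃ η : Cfsg.IrrCharacter G, ∀ g, (η : G → ℂ) g
      = ((lam g : ℂˣ) : ℂ) ^ (r + 1) * (η₀ : G → ℂ) g :=
    ⟨⟨_, hirr⟩, fun g => rfl⟩
  have hηN : ∀ n : N, (η : G → ℂ) n = (θ : N → ℂ) n := by
    intro n
    rw [hη, hlamN n, one_pow, one_mul, hη₀ n]
  have hη1' : (η : G → ℂ) 1 = (θ : N → ℂ) 1 := by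
    have h := hηN 1
    rwa [OneMemClass.coe_one] at h
  have hdeg : Cfsg.charDegree (η : G → ℂ) = Cfsg.charDegree (θ : N → ℂ) := by
    have h1 := isIrrCharacter_one_eq_charDegree η.2
    have h2 := isIrrCharacter_one_eq_charDegree θ.2
    rw [hη1', h2] at h1
    exact_mod_cast h1.symm
  -- conjugation relation
  obtain ⟨ζ, hζ⟩ : ∃ ζ : G → ℂ, ∀ g, ζ g = conj ((lam g : ℂˣ) : ℂ) ^ m := ⟨fun g => _, fun _ => rfl⟩
  have hconjη : ∀ g : G, conj ((η : G → ℂ) g) = ζ g * (η : G → ℂ) g := by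
    intro g
    have h0 : conj ((η₀ : G → ℂ) g) = ((lam g : ℂˣ) : ℂ) * (η₀ : G → ℂ) g := by
      have h1 := congrFun hβ g
      rw [Pi.mul_apply, irrConj_apply, hlam] at h1
      exact h1
    rw [hη, hζ, map_mul, map_pow, h0, hr]
    have e1 : conj ((lam g : ℂˣ) : ℂ) ^ (r + 1) * (((lam g : ℂˣ) : ℂ) * (η₀ : G → ℂ) g)
        = conj ((lam g : ℂˣ) : ℂ) ^ r * (conj ((lam g : ℂˣ) : ℂ) * ((lam g : ℂˣ) : ℂ))
          * (η₀ : G → ℂ) g := by ring
    have e2 : conj ((lam g : ℂˣ) : ℂ) ^ (2 * r + 1)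
          * (((lam g : ℂˣ) : ℂ) ^ (r + 1) * (η₀ : G → ℂ) g)
        = conj ((lam g : ℂˣ) : ℂ) ^ r * (conj ((lam g : ℂˣ) : ℂ) * ((lam g : ℂˣ) : ℂ)) ^ (r + 1)
          * (η₀ : G → ℂ) g := by ring
    rw [e1, e2, hnorm g, one_pow]
  have hζpow : ∀ g : G, ζ g ^ (2 ^ s) = 1 := by
    intro g
    rw [hζ, ← pow_mul, mul_comm, ← map_pow, hlampow g, map_one]
  have hζint : ∀ g : G, IsIntegral ℤ (ζ g) := by
    intro g
    rw [hζ]
    apply IsIntegral.pow
    have h1 := bcf_irr_isIntegral (irrConj β₀).2 g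
    rw [irrConj_apply, hlam] at h1
    exact h1
  have hsame : Cfsg.SameBlock M (η : G → ℂ) (irrConj η : G → ℂ) := by
    intro g
    have h1 : Cfsg.centralChar (irrConj η : G → ℂ) g
        = ζ g * Cfsg.centralChar (η : G → ℂ) g := by
      unfold Cfsg.centralChar
      rw [irrConj_apply, irrConj_apply, irr_one_conj, hconjη g]
      ring
    have h2 : Cfsg.centralChar (η : G → ℂ) g - Cfsg.centralChar (irrConj η : G → ℂ) g
        = (-Cfsg.centralChar (η : G → ℂ) g) * (ζ g - 1) := by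
      rw [h1]
      ring
    rw [h2]
    have h3 : -Cfsg.centralChar (η : G → ℂ) g ∈ lrSub M hMp :=
      (lrSub M hMp).neg_mem ((mem_lrSub hMp _).2 (lr_int 2 M hM (cc_isIntegral η g)))
    exact li_mul hMp ((mem_lrSub hMp _).1 h3)
      (two_pow_root_li M hM s (ζ g) (lr_int 2 M hM (hζint g)) (hζpow g))
  -- the block of η
  have hB : Cfsg.IsPBlock M (Cfsg.blockOf M (η : G → ℂ)) := ⟨η, rfl⟩
  have hηB : η ∈ Cfsg.blockOf M (η : G → ℂ) := sb_refl hMp _
  have hconjB : ∀ ψ ∈ Cfsg.blockOf M (η : G → ℂ), irrConj ψ ∈ Cfsg.blockOf M (η : G → ℂ) := by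
    intro ψ hψ g
    have h1 := hψ g⁻¹
    have h2 := hsame g
    rw [cc_irrConj] at h2 ⊢
    have h3 := li_add hMp h2 h1
    rwa [sub_add_sub_cancel] at h3
  have hprin := real_block_odd_principal M hM _ hB hconjB η hηB
    (by rw [hdeg]; exact hodd.not_two_dvd_nat)
  refine ⟨η, hηN, ?_⟩
  rw [← hprin]
  exact hηB

/-- The statement for finite groups. -/
theorem real_ext_main {G : Type*} [Group G] [Finite G] (N : Subgroup G) [N.Normal]
    (M : Ideal Cfsg.AlgInt) (hM : Cfsg.IsPModular 2 M) (θ : Cfsg.IrrCharacter N)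
    (hreal : ∀ n : N, ((θ : N → ℂ) n).im = 0) (hodd : Odd (Cfsg.charDegree (θ : N → ℂ)))
    (hext : ∃ η : Cfsg.IrrCharacter G, ∀ n : N, (η : G → ℂ) n = (θ : N → ℂ) n) :
    ∃ η : Cfsg.IrrCharacter G, (∀ n : N, (η : G → ℂ) n = (θ : N → ℂ) n) ∧
      η ∈ Cfsg.principalBlock M G := by
  letI := Fintype.ofFinite G
  letI : Fintype N := Fintype.ofFinite N
  obtain ⟨η₀, hη₀⟩ := hext
  exact real_ext_principal N M hM θ hreal hodd η₀ hη₀

end BlockReal4

end Cfsg.Agent.Lib.Helper6
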