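import Mathlib

set_option autoImplicit false

namespace Cfsg.Agent.Lib.Helper6

section IrrLin

variable {F V : Type*} [Field F] [AddCommGroup V] [Module F V]

/-- If `φ` is irreducible, `ψ` commutes with `φ` and kills a nonzero vector, then `ψ = 0`. -/
theorem il_kill (φ : Module.End F V)
    (hirr : ∀ W : Submodule F V, (∀ w ∈ W, φ w ∈ W) → W = ⊥ ∨ W = ⊤)
    (v₀ : V) (hv₀ : v₀ ≠ 0) (ψ : Module.End F V) (hc : ψ * φ = φ * ψ) (h0 : ψ v₀ = 0) :
    ψ = 0 := by
  have hW : ∀ w ∈ LinearMap.ker ψ, φ w ∈ LinearMap.ker ψ := by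
    intro w hw
    rw [LinearMap.mem_ker] at hw ⊢
    have h1 : ψ (φ w) = φ (ψ w) := congrArg (fun f : Module.End F V => f w) hc
    rw [h1, hw, map_zero]
  rcases hirr _ hW with h | h
  · exfalso
    have h1 : v₀ ∈ LinearMap.ker ψ := LinearMap.mem_ker.mpr h0
    rw [h, Submodule.mem_bot] at h1
    exact hv₀ h1
  · exact LinearMap.ker_eq_top.mp h

/-- If `φ` is irreducible, every vector is `ρ v₀` for some `ρ ∈ F[φ]`. -/
theorem il_surj (φ : Module.End F V)
    (hirr : ∀ W : Submodule F V, (∀ w ∈ W, φ w ∈ W) → W = ⊥ ∨ W = ⊤)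
    (v₀ : V) (hv₀ : v₀ ≠ 0) (v : V) : ∃ ρ ∈ Algebra.adjoin F {φ}, ρ v₀ = v := by
  let W : Submodule F V :=
    { carrier := {w | ∃ ρ ∈ Algebra.adjoin F {φ}, ρ v₀ = w}
      add_mem' := by
        rintro x y ⟨r, hr, rfl⟩ ⟨s, hs, rfl⟩
        exact ⟨r + s, add_mem hr hs, rfl⟩
      zero_mem' := ⟨0, zero_mem _, rfl⟩
      smul_mem' := by
        rintro c x ⟨r, hr, rfl⟩
        exact ⟨c • r, Subalgebra.smul_mem _ hr c, rfl⟩ }
  have hφ : φ ∈ Algebra.adjoin F {φ} := Algebra.subset_adjoin (Set.mem_singleton φ)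
  have hW : ∀ w ∈ W, φ w ∈ W := by
    rintro w ⟨r, hr, rfl⟩
    exact ⟨φ * r, mul_mem hφ hr, rfl⟩
  have hv : v₀ ∈ W := ⟨1, one_mem _, rfl⟩
  rcases hirr W hW with h | h
  · rw [h, Submodule.mem_bot] at hv
    exact absurd hv hv₀
  · have h1 : v ∈ W := h ▸ Submodule.mem_top
    exact h1

theorem il_comm (φ : Module.End F V) :
    ∀ r ∈ Algebra.adjoin F {φ}, ∀ s ∈ Algebra.adjoin F {φ}, r * s = s * r := by
  intro r hr s hs
  letI : CommRing (Algebra.adjoin F {φ}) := Algebra.adjoinCommRingOfComm F (by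
    intro a ha b hb
    rw [Set.mem_singleton_iff] at ha hb
    rw [ha, hb])
  have h1 := mul_comm (⟨r, hr⟩ : Algebra.adjoin F {φ}) ⟨s, hs⟩
  exact congrArg Subtype.val h1

/-- The commutant of an irreducible endomorphism is `F[φ]`. -/
theorem il_mem (φ : Module.End F V)
    (hirr : ∀ W : Submodule F V, (∀ w ∈ W, φ w ∈ W) → W = ⊥ ∨ W = ⊤)
    (v₀ : V) (hv₀ : v₀ ≠ 0) (ψ : Module.End F V) (hc : ψ * φ = φ * ψ) :
    ψ ∈ Algebra.adjoin F {φ} := by
  obtain ⟨ρ, hρ, hρv⟩ := il_surj φ hirr v₀ hv₀ (ψ v₀)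
  have hφ : φ ∈ Algebra.adjoin F {φ} := Algebra.subset_adjoin (Set.mem_singleton φ)
  have h1 : (ψ - ρ) * φ = φ * (ψ - ρ) := by
    rw [sub_mul, mul_sub, hc, il_comm φ ρ hρ φ hφ]
  have h2 : (ψ - ρ) v₀ = 0 := by
    rw [LinearMap.sub_apply, hρv, sub_self]
  have h3 := il_kill φ hirr v₀ hv₀ _ h1 h2
  rw [sub_eq_zero] at h3
  rw [h3]; exact hρ

/-- An irreducible module for an endomorphism of prime order `r` over the field with `q` elements
has `q ^ ord_r(q)` elements. -/
theorem il_card [Fintype F] [Finite V] {p q r : ℕ} [Fact p.Prime] [CharP F p]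
    (hF : Fintype.card F = q) (hr : r.Prime) (φ : Module.End F V) (hφr : φ ^ r = 1)
    (hφ1 : φ ≠ 1)
    (hirr : ∀ W : Submodule F V, (∀ w ∈ W, φ w ∈ W) → W = ⊥ ∨ W = ⊤) :
    Nat.card V = q ^ orderOf (q : ZMod r) := by
  classical
  haveI : Fact r.Prime := ⟨hr⟩
  have hpp : p.Prime := Fact.out
  have hq1 : 1 < q := by rw [← hF]; exact Fintype.one_lt_card
  have hq0 : 0 < q := by omega
  set R : Subalgebra F (Module.End F V) := Algebra.adjoin F {φ} with hR
  letI instC : CommRing R := Algebra.adjoinCommRingOfComm F (by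
    intro a ha b hb
    rw [Set.mem_singleton_iff] at ha hb
    rw [ha, hb])
  have hφR : φ ∈ R := Algebra.subset_adjoin (Set.mem_singleton φ)
  obtain ⟨a, ha⟩ : ∃ a : V, φ a ≠ a := by
    by_contra hcon
    push_neg at hcon
    apply hφ1
    ext v
    exact hcon v
  have ha0 : a ≠ 0 := by
    rintro rfl
    exact ha (map_zero φ)
  have hcommφ : ∀ ρ ∈ R, ρ * φ = φ * ρ := by
    intro ρ hρ
    exact il_comm φ ρ hρ φ hφR
  have hinj : ∀ b : V, b ≠ 0 → ∀ t ∈ R, t b = 0 → t = 0 := fun b hb t ht h0 =>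
    il_kill φ hirr b hb t (hcommφ t ht) h0
  haveI : Nontrivial R := by
    refine ⟨⟨0, 1, ?_⟩⟩
    intro h
    have h1 : (0 : Module.End F V) = 1 := congrArg Subtype.val h
    have h2 : (0 : Module.End F V) a = (1 : Module.End F V) a := by rw [h1]
    exact ha0 h2.symm
  haveI : NoZeroDivisors R := by
    refine ⟨?_⟩
    intro r s hrs
    by_cases hs : s = 0
    · exact Or.inr hs
    · left
      have hs' : (s : Module.End F V) ≠ 0 := fun h => hs (Subtype.ext h)
      obtain ⟨b, hb⟩ : ∃ b : V, (s : Module.End F V) b ≠ 0 := by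
        by_contra hcon
        push_neg at hcon
        apply hs'
        ext v
        exact hcon v
      apply Subtype.ext
      apply hinj _ hb _ r.2
      have h1 : ((r * s : R) : Module.End F V) b = 0 := by rw [hrs]; rfl
      exact h1
  haveI : IsDomain R := NoZeroDivisors.to_isDomain R
  have hbij : Function.Bijective (fun r : R => (r : Module.End F V) a) := by
    constructor
    · intro r s hrs
      have h1 : ((r - s : R) : Module.End F V) a = 0 := by
        show (r : Module.End F V) a - (s : Module.End F V) a = 0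
        rw [sub_eq_zero]; exact hrs
      have h2 := hinj a ha0 _ (r - s).2 h1
      have h3 : r - s = 0 := Subtype.ext h2
      exact sub_eq_zero.mp h3
    · intro v
      obtain ⟨r, hr', hrv⟩ := il_surj φ hirr a ha0 v
      exact ⟨⟨r, hr'⟩, hrv⟩
  haveI : Finite R := Finite.of_injective _ hbij.1
  haveI : Fintype R := Fintype.ofFinite R
  haveI : Fintype V := Fintype.ofFinite V
  have hcard : Nat.card R = Nat.card V := Nat.card_eq_of_bijective _ hbij
  letI : Field R := Fintype.fieldOfDomain R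
  have hVd : Nat.card V = q ^ Module.finrank F V := by
    rw [Nat.card_eq_fintype_card, Module.card_eq_pow_finrank (K := F), hF]
  obtain ⟨d, hd⟩ : ∃ d : ℕ, d = Module.finrank F V := ⟨_, rfl⟩
  rw [← hd] at hVd
  have hd0 : 0 < d := by
    by_contra h0
    have h1 : d = 0 := by omega
    rw [h1, pow_zero] at hVd
    have h2 : Subsingleton V := (Nat.card_eq_one_iff_unique.mp hVd).1
    exact ha0 (Subsingleton.elim a 0)
  have hRd : Fintype.card R = q ^ d := by
    rw [← Nat.card_eq_fintype_card, hcard, hVd]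
  haveI : CharP R p := by
    apply (CharP.charP_iff_prime_eq_zero hpp).mpr
    apply Subtype.ext
    show ((p : R) : Module.End F V) = 0
    ext v
    show ((p : Module.End F V)) v = 0
    rw [Module.End.natCast_apply, ← Nat.cast_smul_eq_nsmul F, CharP.cast_eq_zero F p, zero_smul]
  obtain ⟨f, -, hf⟩ := FiniteField.card F p
  have hφR1 : (⟨φ, hφR⟩ : R) ^ r = 1 := Subtype.ext hφr
  have hφRne : (⟨φ, hφR⟩ : R) ≠ 0 := by
    intro h
    have h0 : (⟨φ, hφR⟩ : R) ^ r = 0 := by rw [h, zero_pow hr.ne_zero]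
    rw [hφR1] at h0
    exact one_ne_zero h0
  have hord : orderOf (⟨φ, hφR⟩ : R) = r := by
    apply orderOf_eq_prime hφR1
    intro h
    exact hφ1 (congrArg Subtype.val h)
  have hdvd : r ∣ q ^ d - 1 := by
    rw [← hord, ← hRd]
    exact orderOf_dvd_of_pow_eq_one (FiniteField.pow_card_sub_one_eq_one _ hφRne)
  have hqd : (q : ZMod r) ^ d = 1 := by
    have h1 : ((q ^ d - 1 : ℕ) : ZMod r) = 0 := (ZMod.natCast_eq_zero_iff _ _).mpr hdvd
    rw [Nat.cast_sub (Nat.one_le_pow _ _ hq0)] at h1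
    push_cast at h1
    exact sub_eq_zero.mp h1
  obtain ⟨e, he⟩ : ∃ e : ℕ, e = orderOf (q : ZMod r) := ⟨_, rfl⟩
  rw [← he]
  have hed : e ∣ d := by rw [he]; exact orderOf_dvd_of_pow_eq_one hqd
  have hele : e ≤ d := Nat.le_of_dvd hd0 hed
  have he0 : e ≠ 0 := by
    rintro h0
    rw [h0] at hed
    have := Nat.eq_zero_of_zero_dvd hed
    omega
  have hqe : r ∣ q ^ e - 1 := by
    apply (ZMod.natCast_eq_zero_iff _ _).mp
    rw [Nat.cast_sub (Nat.one_le_pow _ _ hq0)]
    push_cast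
    rw [he, pow_orderOf_eq_one, sub_self]
  obtain ⟨k, hk⟩ := hqe
  have hqe' : q ^ e = r * k + 1 := by
    have := Nat.one_le_pow e q hq0
    omega
  have hφfix : (⟨φ, hφR⟩ : R) ^ (q ^ e) = ⟨φ, hφR⟩ := by
    rw [hqe', pow_succ, pow_mul, hφR1, one_pow, one_mul]
  have hQ : q ^ e = p ^ ((f : ℕ) * e) := by rw [← hF, hf, pow_mul]
  have hfrob : ∀ (x : Module.End F V) (hx : x ∈ R), (⟨x, hx⟩ : R) ^ (q ^ e) = ⟨x, hx⟩ := by
    intro x hx
    induction hx using Algebra.adjoin_induction with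
    | mem x hx1 =>
      rw [Set.mem_singleton_iff] at hx1
      subst hx1
      exact hφfix
    | algebraMap c =>
      apply Subtype.ext
      show (algebraMap F (Module.End F V) c) ^ (q ^ e) = algebraMap F (Module.End F V) c
      rw [← map_pow, ← hF, FiniteField.pow_card_pow]
    | add x y hx1 hy1 ihx ihy =>
      have e1 : (⟨x + y, R.add_mem hx1 hy1⟩ : R) = ⟨x, hx1⟩ + ⟨y, hy1⟩ := rfl
      rw [e1, hQ, add_pow_char_pow, ← hQ, ihx, ihy]
    | mul x y hx1 hy1 ihx ihy =>
      have e1 : (⟨x * y, R.mul_mem hx1 hy1⟩ : R) = ⟨x, hx1⟩ * ⟨y, hy1⟩ := rfl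
      rw [e1, mul_pow, ihx, ihy]
  have hle : Fintype.card R ≤ q ^ e := by
    have hP : (Polynomial.X ^ q ^ e - Polynomial.X : Polynomial R) ≠ 0 :=
      FiniteField.X_pow_card_pow_sub_X_ne_zero R he0 hq1
    have hdeg : (Polynomial.X ^ q ^ e - Polynomial.X : Polynomial R).natDegree = q ^ e :=
      FiniteField.X_pow_card_pow_sub_X_natDegree_eq R he0 hq1
    have hsub : (Finset.univ : Finset R) ⊆
        (Polynomial.X ^ q ^ e - Polynomial.X : Polynomial R).roots.toFinset := by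
      intro r _
      rw [Multiset.mem_toFinset, Polynomial.mem_roots hP, Polynomial.IsRoot.def]
      simp only [Polynomial.eval_sub, Polynomial.eval_pow, Polynomial.eval_X]
      rw [sub_eq_zero]
      exact hfrob r.1 r.2
    calc Fintype.card R = (Finset.univ : Finset R).card := rfl
      _ ≤ (Polynomial.X ^ q ^ e - Polynomial.X : Polynomial R).roots.toFinset.card :=
          Finset.card_le_card hsub
      _ ≤ Multiset.card (Polynomial.X ^ q ^ e - Polynomial.X : Polynomial R).roots :=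
          Multiset.toFinset_card_le _
      _ ≤ (Polynomial.X ^ q ^ e - Polynomial.X : Polynomial R).natDegree :=
          Polynomial.card_roots' _
      _ = q ^ e := hdeg
  rw [hRd] at hle
  have hde : d ≤ e := (Nat.pow_le_pow_iff_right hq1).mp hle
  have hfin : d = e := le_antisymm hde hele
  rw [hVd, hfin]

end IrrLin

end Cfsg.Agent.Lib.Helper6
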