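import Mathlib
import Cfsg.Agent.Lib.Helper6.IrrLin

set_option autoImplicit false

namespace Cfsg.Agent.Lib.Helper6

section IrrLin2

variable {F V : Type*} [Field F] [AddCommGroup V] [Module F V]

/-- An element of prime order `r` of `GL(V)`, `|V| = q ^ n` with `n` the order of `q` modulo `r`,
acts irreducibly. -/
theorem il_irr [Fintype F] [Finite V] {p q n r : ℕ} [Fact p.Prime] [CharP F p]
    (hF : Fintype.card F = q) (hV : Nat.card V = q ^ n) (hr : r.Prime)
    (hrp : r ≠ p) (hi : orderOf (q : ZMod r) = n) (φ : Module.End F V) (hφr : φ ^ r = 1)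
    (hφ1 : φ ≠ 1) :
    ∀ W : Submodule F V, (∀ w ∈ W, φ w ∈ W) → W = ⊥ ∨ W = ⊤ := by
  classical
  have hpp : p.Prime := Fact.out
  have hrF : (r : F) ≠ 0 := by
    intro h
    have h1 := (CharP.cast_eq_zero_iff F p r).mp h
    exact hrp ((Nat.prime_dvd_prime_iff_eq hpp hr).mp h1).symm
  have hU : ∀ w ∈ LinearMap.range (φ - 1), φ w ∈ LinearMap.range (φ - 1) := by
    rintro w ⟨u, rfl⟩
    refine ⟨φ u, ?_⟩
    simp only [LinearMap.sub_apply, Module.End.one_apply, map_sub]
  have hUbot : LinearMap.range (φ - 1) ≠ ⊥ := by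
    intro h
    apply hφ1
    have h1 : φ - 1 = 0 := LinearMap.range_eq_bot.mp h
    exact sub_eq_zero.mp h1
  obtain ⟨W, ⟨hWbot, hWU, hWinv⟩, hWmin⟩ :=
    WellFounded.has_min (measure (fun W : Submodule F V => Nat.card W)).wf
      {W : Submodule F V | W ≠ ⊥ ∧ W ≤ LinearMap.range (φ - 1) ∧ ∀ w ∈ W, φ w ∈ W}
      ⟨_, hUbot, le_rfl, hU⟩
  have hWmin' : ∀ W' : Submodule F V, W' ≠ ⊥ → W' ≤ W → (∀ w ∈ W', φ w ∈ W') → W' = W := by
    intro W' h1 h2 h3
    have hc : Nat.card W ≤ Nat.card W' := not_lt.mp (hWmin W' ⟨h1, h2.trans hWU, h3⟩)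
    apply SetLike.coe_injective
    apply Set.eq_of_subset_of_ncard_le h2 _ (Set.toFinite _)
    rw [← Nat.card_coe_set_eq, ← Nat.card_coe_set_eq]
    exact hc
  have hpowW : ∀ (k : ℕ) (w : W), (((φ.restrict hWinv) ^ k) w : V) = (φ ^ k) (w : V) := by
    intro k
    induction k with
    | zero => intro w; rfl
    | succ k ih =>
      intro w
      rw [pow_succ', pow_succ', Module.End.mul_apply, Module.End.mul_apply]
      rw [← ih w]
      rfl
  have hφWr : (φ.restrict hWinv) ^ r = 1 := by
    ext w
    rw [hpowW, hφr]
    rfl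
  have hφW1 : (φ.restrict hWinv) ≠ 1 := by
    intro h
    apply hWbot
    rw [eq_bot_iff]
    intro w hw
    have hfix : φ w = w :=
      congrArg (fun f : Module.End F W => ((f ⟨w, hw⟩ : W) : V)) h
    obtain ⟨u, hu⟩ := hWU hw
    have hu' : φ u = u + w := by
      rw [← hu, LinearMap.sub_apply, Module.End.one_apply]; abel
    have key : ∀ k : ℕ, (φ ^ k) u = u + k • w := by
      intro k
      induction k with
      | zero => simp
      | succ k ih =>
        rw [pow_succ', Module.End.mul_apply, ih, map_add, map_nsmul, hfix, hu', succ_nsmul]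
        abel
    have h1 := key r
    rw [hφr, Module.End.one_apply] at h1
    have h2 : r • w = 0 := by
      have : u + r • w = u + 0 := by rw [add_zero]; exact h1.symm
      exact add_left_cancel this
    rw [← Nat.cast_smul_eq_nsmul F] at h2
    rw [Submodule.mem_bot]
    exact (smul_eq_zero.mp h2).resolve_left hrF
  have hirrW : ∀ W₁ : Submodule F W, (∀ w ∈ W₁, (φ.restrict hWinv) w ∈ W₁) →
      W₁ = ⊥ ∨ W₁ = ⊤ := by
    intro W₁ h₁
    by_cases hb : W₁ = ⊥
    · exact Or.inl hb
    · right
      have h2 : W₁.map W.subtype = W := by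
        apply hWmin'
        · intro h
          apply hb
          rw [eq_bot_iff]
          intro w hw
          have h3 : (w : V) ∈ W₁.map W.subtype := Submodule.mem_map_of_mem hw
          rw [h, Submodule.mem_bot] at h3
          rw [Submodule.mem_bot]
          exact Subtype.ext h3
        · rintro v ⟨w, -, rfl⟩
          exact w.2
        · rintro v ⟨w, hw, rfl⟩
          exact ⟨(φ.restrict hWinv) w, h₁ w hw, rfl⟩
      rw [eq_top_iff]
      intro w _
      have h3 : (w : V) ∈ W₁.map W.subtype := by rw [h2]; exact w.2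
      obtain ⟨w', hw', hww⟩ := h3
      have h4 : w' = w := Subtype.ext hww
      rw [← h4]; exact hw'
  have hcW := il_card hF hr (φ.restrict hWinv) hφWr hφW1 hirrW
  rw [hi, ← hV] at hcW
  have hWtop : W = ⊤ := by
    have hbij : Function.Bijective W.subtype :=
      (Subtype.val_injective).bijective_of_nat_card_le (le_of_eq hcW.symm)
    rw [eq_top_iff]
    intro v _
    obtain ⟨w, rfl⟩ := hbij.2 v
    exact w.2
  intro W' hW'
  by_cases hb : W' = ⊥
  · exact Or.inl hb
  · right
    rw [← hWtop]
    exact hWmin' W' hb (hWtop ▸ le_top) hW'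

/-- The centraliser in `GL(V)` of an element of prime order `r`, where `|V| = q ^ n` and `n` is the
order of `q` modulo `r`, is cyclic of order `q ^ n - 1`. -/
theorem il_singer [Fintype F] [Finite V] {p q n r : ℕ} [Fact p.Prime] [CharP F p]
    (hF : Fintype.card F = q) (hV : Nat.card V = q ^ n) (hn : 1 ≤ n) (hr : r.Prime)
    (hrp : r ≠ p) (hi : orderOf (q : ZMod r) = n) (x : (Module.End F V)ˣ) (hx : orderOf x = r) :
    IsCyclic (Subgroup.centralizer ({x} : Set (Module.End F V)ˣ)) ∧
      Nat.card (Subgroup.centralizer ({x} : Set (Module.End F V)ˣ)) = q ^ n - 1 := by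
  classical
  have hpp : p.Prime := Fact.out
  have hq1 : 1 < q := by rw [← hF]; exact Fintype.one_lt_card
  have hφr : (x : Module.End F V) ^ r = 1 := by
    have h1 := pow_orderOf_eq_one x
    rw [hx] at h1
    have h2 := congrArg Units.val h1
    rw [Units.val_pow_eq_pow_val, Units.val_one] at h2
    exact h2
  have hφ1 : (x : Module.End F V) ≠ 1 := by
    intro h
    have h1 : x = 1 := Units.ext h
    rw [h1, orderOf_one] at hx
    exact hr.one_lt.ne hx
  have hirr := il_irr hF hV hr hrp hi (x : Module.End F V) hφr hφ1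
  -- a nonzero vector
  haveI : Nontrivial V := by
    apply Finite.one_lt_card_iff_nontrivial.mp
    rw [hV]
    exact Nat.one_lt_pow (by omega) hq1
  obtain ⟨v₀, hv₀⟩ := exists_ne (0 : V)
  -- commutation
  have hcomm : ∀ g : (Module.End F V)ˣ, g ∈ Subgroup.centralizer ({x} : Set (Module.End F V)ˣ) →
      (g : Module.End F V) * (x : Module.End F V) = (x : Module.End F V) * (g : Module.End F V) := by
    intro g hg
    have h1 := Subgroup.mem_centralizer_iff.mp hg x rfl
    have h2 := congrArg Units.val h1
    rw [Units.val_mul, Units.val_mul] at h2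
    exact h2.symm
  -- the evaluation bijection
  have hne : ∀ g : (Module.End F V)ˣ, (g : Module.End F V) v₀ ≠ 0 := by
    intro g h
    apply hv₀
    have h1 : ((g⁻¹ : (Module.End F V)ˣ) : Module.End F V) ((g : Module.End F V) v₀) = v₀ := by
      rw [← Module.End.mul_apply, ← Units.val_mul, inv_mul_cancel, Units.val_one,
        Module.End.one_apply]
    rw [← h1, h, map_zero]
  have hbij : Function.Bijective
      (fun g : Subgroup.centralizer ({x} : Set (Module.End F V)ˣ) =>
        (⟨((g : (Module.End F V)ˣ) : Module.End F V) v₀, hne g⟩ : {v : V // v ≠ 0})) := by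
    constructor
    · intro g h hgh
      have h1 : ((g : (Module.End F V)ˣ) : Module.End F V) v₀ =
          ((h : (Module.End F V)ˣ) : Module.End F V) v₀ := congrArg Subtype.val hgh
      have h2 : (((g : (Module.End F V)ˣ) : Module.End F V) -
          ((h : (Module.End F V)ˣ) : Module.End F V)) = 0 := by
        apply il_kill (x : Module.End F V) hirr v₀ hv₀
        · rw [sub_mul, mul_sub, hcomm g g.2, hcomm h h.2]
        · rw [LinearMap.sub_apply, h1, sub_self]
      apply Subtype.ext
      apply Units.ext
      exact sub_eq_zero.mp h2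
    · rintro ⟨v, hv⟩
      obtain ⟨ρ, hρ, hρv⟩ := il_surj (x : Module.End F V) hirr v₀ hv₀ v
      have hφA : (x : Module.End F V) ∈ Algebra.adjoin F {(x : Module.End F V)} :=
        Algebra.subset_adjoin (Set.mem_singleton _)
      have hρc : ρ * (x : Module.End F V) = (x : Module.End F V) * ρ :=
        il_comm _ ρ hρ _ hφA
      have hρinj : Function.Injective ρ := by
        rw [← LinearMap.ker_eq_bot]
        have hW : ∀ w ∈ LinearMap.ker ρ, (x : Module.End F V) w ∈ LinearMap.ker ρ := by
          intro w hw
          rw [LinearMap.mem_ker] at hw ⊢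
          have h1 : ρ ((x : Module.End F V) w) = (x : Module.End F V) (ρ w) :=
            congrArg (fun f : Module.End F V => f w) hρc
          rw [h1, hw, map_zero]
        rcases hirr _ hW with h | h
        · exact h
        · exfalso
          have h1 : v₀ ∈ LinearMap.ker ρ := by rw [h]; exact Submodule.mem_top
          rw [LinearMap.mem_ker, hρv] at h1
          exact hv h1
      have hρbij : Function.Bijective ρ := ⟨hρinj, Finite.injective_iff_surjective.mp hρinj⟩
      have hu : IsUnit ρ := (Module.End.isUnit_iff ρ).mpr hρbij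
      refine ⟨⟨hu.unit, ?_⟩, ?_⟩
      · rw [Subgroup.mem_centralizer_iff]
        intro h hh
        rw [Set.mem_singleton_iff] at hh
        subst hh
        apply Units.ext
        rw [Units.val_mul, Units.val_mul, IsUnit.unit_spec]
        exact hρc.symm
      · apply Subtype.ext
        show (hu.unit : Module.End F V) v₀ = v
        rw [IsUnit.unit_spec]
        exact hρv
  have hcard : Nat.card (Subgroup.centralizer ({x} : Set (Module.End F V)ˣ)) = q ^ n - 1 := by
    rw [Nat.card_eq_of_bijective _ hbij, ← hV]
    have h1 : Nat.card {v : V // v ≠ 0} = Nat.card (({0} : Set V)ᶜ : Set V) :=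
      Nat.card_congr (Equiv.subtypeEquivRight (by intro v; simp))
    rw [h1, Nat.card_coe_set_eq, Set.ncard_compl, Set.ncard_singleton]
  refine ⟨?_, hcard⟩
  -- cyclic: embed into the commutative domain F[x]
  letI instC : CommRing (Algebra.adjoin F {(x : Module.End F V)}) :=
    Algebra.adjoinCommRingOfComm F (by
      intro a ha b hb
      rw [Set.mem_singleton_iff] at ha hb
      rw [ha, hb])
  have hφA : (x : Module.End F V) ∈ Algebra.adjoin F {(x : Module.End F V)} :=
    Algebra.subset_adjoin (Set.mem_singleton _)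
  haveI : Nontrivial (Algebra.adjoin F {(x : Module.End F V)}) := by
    refine ⟨⟨0, 1, ?_⟩⟩
    intro h
    have h1 : (0 : Module.End F V) = 1 := congrArg Subtype.val h
    have h2 : (0 : Module.End F V) v₀ = (1 : Module.End F V) v₀ := by rw [h1]
    exact hv₀ h2.symm
  haveI : NoZeroDivisors (Algebra.adjoin F {(x : Module.End F V)}) := by
    refine ⟨?_⟩
    intro r s hrs
    by_cases hs : s = 0
    · exact Or.inr hs
    · left
      have hs' : (s : Module.End F V) ≠ 0 := fun h => hs (Subtype.ext h)
      obtain ⟨b, hb⟩ : ∃ b : V, (s : Module.End F V) b ≠ 0 := by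
        by_contra hcon
        push_neg at hcon
        apply hs'
        ext v
        exact hcon v
      apply Subtype.ext
      apply il_kill (x : Module.End F V) hirr _ hb _ (il_comm _ _ r.2 _ hφA)
      have h1 : ((r * s : Algebra.adjoin F {(x : Module.End F V)}) : Module.End F V) b = 0 := by
        rw [hrs]; rfl
      exact h1
  haveI : IsDomain (Algebra.adjoin F {(x : Module.End F V)}) := NoZeroDivisors.to_isDomain _
  let f : Subgroup.centralizer ({x} : Set (Module.End F V)ˣ) →*
      Algebra.adjoin F {(x : Module.End F V)} :=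
    { toFun := fun g => ⟨((g : (Module.End F V)ˣ) : Module.End F V),
        il_mem _ hirr v₀ hv₀ _ (hcomm g g.2)⟩
      map_one' := rfl
      map_mul' := fun _ _ => rfl }
  have hf : Function.Injective f := by
    intro g h hgh
    have h1 : ((g : (Module.End F V)ˣ) : Module.End F V) =
        ((h : (Module.End F V)ˣ) : Module.End F V) := congrArg Subtype.val hgh
    exact Subtype.ext (Units.ext h1)
  haveI : Finite (Module.End F V) :=
    Finite.of_injective (fun g : Module.End F V => (g : V → V)) DFunLike.coe_injective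
  haveI : Finite (Module.End F V)ˣ :=
    Finite.of_injective (fun u : (Module.End F V)ˣ => (u : Module.End F V)) (fun a b h => Units.ext h)
  exact isCyclic_of_subgroup_isDomain f hf

end IrrLin2

end Cfsg.Agent.Lib.Helper6
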