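import Mathlib
import Cfsg.Agent.Lib.Helper6.IrrLin2
import Cfsg.Agent.Lib.Helper6.Zsig

set_option autoImplicit false

namespace Cfsg.Agent.Lib.Helper6

open Polynomial

section Singer

/-- A prime power `p ^ f` with `p ^ f + 1` a power of two is a prime. -/
theorem sg_pp (p f m : ℕ) (hp : p.Prime) (hf : 0 < f) (h : p ^ f + 1 = 2 ^ m) : f = 1 := by
  have hp2 : p ≠ 2 := by
    rintro rfl
    rcases m with _ | m
    · simp at h
    · have h1 : 2 ∣ 2 ^ f := dvd_pow_self 2 hf.ne'
      have h2 : 2 ∣ 2 ^ (m + 1) := dvd_pow_self 2 (by omega)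
      omega
  have hodd : p % 2 = 1 := (hp.eq_two_or_odd).resolve_left hp2
  have hp3 : 3 ≤ p := by have := hp.two_le; omega
  by_contra hf1
  have hf2 : 2 ≤ f := by omega
  have hpf : p ^ 2 ≤ p ^ f := Nat.pow_le_pow_right (by omega) hf2
  have h9 : 9 ≤ p ^ 2 := by nlinarith
  have h4 : 4 ∣ 2 ^ m := by
    have : 2 ≤ m := by
      by_contra hm
      have hm' : m ≤ 1 := by omega
      have : 2 ^ m ≤ 2 ^ 1 := Nat.pow_le_pow_right (by norm_num) hm'
      omega
    obtain ⟨k, rfl⟩ : ∃ k, m = k + 2 := ⟨m - 2, by omega⟩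
    exact ⟨2 ^ k, by ring⟩
  rcases Nat.even_or_odd f with ⟨g, hg⟩ | ⟨g, hg⟩
  · have h1 : p ^ f = (p ^ g) ^ 2 := by rw [hg, ← pow_mul]; congr 1; ring
    have hc : (p ^ g) % 2 = 1 := by rw [Nat.pow_mod, hodd]; simp
    have h5 : (p ^ g) % 4 = 1 ∨ (p ^ g) % 4 = 3 := by omega
    have h6 : ((p ^ g) ^ 2) % 4 = 1 := by
      rcases h5 with h | h <;> simp [Nat.pow_mod, h]
    omega
  · have hg1 : 1 ≤ g := by omega
    have h1 : p ^ f = p * (p ^ 2) ^ g := by rw [hg, ← pow_mul, pow_succ]; ring
    have h2 : p ^ 2 - 1 ∣ (p ^ 2) ^ g - 1 := by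
      simpa only [one_pow] using Nat.sub_dvd_pow_sub_pow (p ^ 2) 1 g
    obtain ⟨t, ht⟩ := h2
    have h1le : 1 ≤ (p ^ 2) ^ g := Nat.one_le_pow _ _ (by omega)
    have h3 : (p ^ 2) ^ g = (p ^ 2 - 1) * t + 1 := by omega
    have hle : p ^ 2 ≤ (p ^ 2) ^ g := Nat.le_self_pow (by omega) _
    have ht1 : 1 ≤ t := by
      rcases Nat.eq_zero_or_pos t with rfl | h
      · exfalso
        rw [mul_zero] at h3
        omega
      · exact h
    have h5 : p ^ f + 1 = (p + 1) * (1 + p * (p - 1) * t) := by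
      rw [h1, h3, zs_sq_sub p (by omega)]
      obtain ⟨c, rfl⟩ : ∃ c, p = c + 1 := ⟨p - 1, by omega⟩
      simp only [Nat.add_sub_cancel]; ring
    have h6 : (1 + p * (p - 1) * t) ∣ 2 ^ m := ⟨p + 1, by rw [← h, h5]; ring⟩
    obtain ⟨i, hi, hi2⟩ := (Nat.dvd_prime_pow Nat.prime_two).1 h6
    have heven : 2 ∣ p * (p - 1) := by
      have : 2 ∣ p - 1 := by omega
      exact Dvd.dvd.mul_left this p
    have heven' : 2 ∣ p * (p - 1) * t := Dvd.dvd.mul_right heven t
    rcases i with _ | i
    · rw [pow_zero] at hi2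
      have h7 : 0 < p * (p - 1) * t := Nat.mul_pos (Nat.mul_pos (by omega) (by omega)) ht1
      omega
    · have : 2 ∣ 2 ^ (i + 1) := dvd_pow_self 2 (by omega)
      rw [← hi2] at this
      omega

/-- Root finding in a finite commutative domain `A` over a field `F`: every divisor of positive
degree of `X ^ |A| - X` has a root in `A`. -/
theorem sg_root {F A : Type*} [Field F] [CommRing A] [IsDomain A] [Fintype A] [Algebra F A]
    (N : ℕ) (hN : Fintype.card A = N) (hN1 : 1 < N) (m : F[X]) (hm : m ∣ X ^ N - X)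
    (hdeg : 0 < m.natDegree) : ∃ a : A, aeval a m = 0 := by
  classical
  obtain ⟨h, hh⟩ := hm
  have hA : ∀ a : A, a ^ N = a := by
    intro a
    letI := Fintype.fieldOfDomain A
    rw [← hN]
    exact FiniteField.pow_card a
  by_contra hcon
  push_neg at hcon
  have hP : (X ^ N - X : F[X]) ≠ 0 := FiniteField.X_pow_card_sub_X_ne_zero F hN1
  have hh0 : h ≠ 0 := by rintro rfl; rw [mul_zero] at hh; exact hP hh
  have hm0 : m ≠ 0 := by rintro rfl; rw [zero_mul] at hh; exact hP hh
  have hroot : ∀ a : A, aeval a h = 0 := by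
    intro a
    have h1 : aeval a (X ^ N - X : F[X]) = 0 := by simp [hA a]
    rw [hh, map_mul] at h1
    exact (mul_eq_zero.1 h1).resolve_left (hcon a)
  have hmap : (h.map (algebraMap F A)) ≠ 0 :=
    (Polynomial.map_ne_zero_iff (algebraMap F A).injective).2 hh0
  have hsub : (Finset.univ : Finset A).val ⊆ (h.map (algebraMap F A)).roots := by
    intro a _
    rw [mem_roots hmap, IsRoot.def, eval_map_algebraMap]
    exact hroot a
  have hle := card_le_degree_of_subset_roots hsub
  rw [Finset.card_univ, hN] at hle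
  have hdegh : (h.map (algebraMap F A)).natDegree = h.natDegree := natDegree_map _
  have hsum : m.natDegree + h.natDegree = N := by
    rw [← natDegree_mul hm0 hh0, ← hh]
    exact FiniteField.X_pow_card_sub_X_natDegree_eq F hN1
  omega

/-- An abelian subgroup of `GL_F(K)` of order `|K| - 1` is conjugate to the Singer group
(under the Zsigmondy hypotheses). -/
theorem sg_conj {F K : Type*} [Field F] [Fintype F] [Field K] [Fintype K] [Algebra F K] (n : ℕ)
    (hn : 2 ≤ n) (hdim : Module.finrank F K = n)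
    (hex1 : ¬ (n = 6 ∧ Fintype.card F = 2))
    (hex2 : ¬ (n = 2 ∧ (Fintype.card F).Prime ∧ ∃ a : ℕ, Fintype.card F + 1 = 2 ^ a))
    (U : Subgroup (Module.End F K)ˣ) (hU : IsMulCommutative U)
    (hcard : Nat.card U = Fintype.card K - 1) :
    ∃ g : (Module.End F K)ˣ, U.map (MulAut.conj g).toMonoidHom =
      (Units.map ((Algebra.lmul F K : K →ₐ[F] Module.End F K) : K →* Module.End F K)).range := by
  classical
  obtain ⟨q, hq⟩ : ∃ q, q = Fintype.card F := ⟨_, rfl⟩
  have hq1 : 1 < q := hq ▸ Fintype.one_lt_card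
  have hK : Fintype.card K = q ^ n := by rw [← hdim, hq]; exact Module.card_eq_pow_finrank
  obtain ⟨p, hcp⟩ := CharP.exists F
  haveI := hcp
  haveI hpf : Fact p.Prime := ⟨CharP.char_is_prime F p⟩
  obtain ⟨f, hpp, hqf⟩ := FiniteField.card F p
  rw [← hq] at hqf hex1 hex2
  obtain ⟨r, hr, hrd, hrk⟩ := zsigmondy q n hq1 (by omega) (fun h => hex1 ⟨h.2, h.1⟩) (by
    rintro ⟨h2, m, hm⟩
    apply hex2
    refine ⟨h2, ?_, m, hm⟩
    have hf1 : (f : ℕ) = 1 := sg_pp p f m hpp f.pos (by rw [← hqf]; exact hm)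
    rw [hqf, hf1, pow_one]
    exact hpp)
  haveI : Fact r.Prime := ⟨hr⟩
  have hkey : ∀ k : ℕ, r ∣ q ^ k - 1 ↔ (q : ZMod r) ^ k = 1 := by
    intro k
    rw [← ZMod.natCast_eq_zero_iff, Nat.cast_sub (Nat.one_le_pow _ _ (by omega)), Nat.cast_pow,
      Nat.cast_one, sub_eq_zero]
  have hi : orderOf (q : ZMod r) = n := by
    rw [orderOf_eq_iff (by omega)]
    exact ⟨(hkey n).1 hrd, fun k hk hk0 h => hrk k hk0 hk ((hkey k).2 h)⟩
  have hrp : r ≠ p := by
    rintro rfl
    have h1 : r ∣ q ^ n := by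
      rw [hqf, ← pow_mul]
      exact dvd_pow_self r (Nat.mul_ne_zero f.pos.ne' (by omega))
    have h2 : 0 < q ^ n := by positivity
    have h3 : r ∣ 1 := by
      have := Nat.dvd_sub h1 hrd
      rwa [show q ^ n - (q ^ n - 1) = 1 by omega] at this
    exact hr.one_lt.ne' (Nat.dvd_one.1 h3)
  haveI : Finite (Module.End F K) :=
    Finite.of_injective (fun g : Module.End F K => (g : K → K)) DFunLike.coe_injective
  haveI : Finite (Module.End F K)ˣ :=
    Finite.of_injective (fun u : (Module.End F K)ˣ => (u : Module.End F K))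
      (fun a b h => Units.ext h)
  have hrU : r ∣ Nat.card U := by rw [hcard, hK]; exact hrd
  obtain ⟨x, hx⟩ := exists_prime_orderOf_dvd_card' r hrU
  have hx' : orderOf (x : (Module.End F K)ˣ) = r := by rw [Subgroup.orderOf_coe]; exact hx
  have hV : Nat.card K = q ^ n := by rw [Nat.card_eq_fintype_card]; exact hK
  obtain ⟨-, hcent⟩ := il_singer (F := F) (V := K) (p := p) hq.symm hV (by omega) hr hrp hi
    (x : (Module.End F K)ˣ) hx'
  have hUle : U ≤ Subgroup.centralizer ({(x : (Module.End F K)ˣ)} : Set (Module.End F K)ˣ) := by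
    intro u hu
    rw [Subgroup.mem_centralizer_iff]
    intro h hh
    rw [Set.mem_singleton_iff] at hh
    rw [hh]
    have h1 : x * ⟨u, hu⟩ = ⟨u, hu⟩ * x := hU.is_comm.comm _ _
    exact congrArg Subtype.val h1
  have hUeq : U = Subgroup.centralizer ({(x : (Module.End F K)ˣ)} : Set (Module.End F K)ˣ) :=
    Subgroup.eq_of_le_of_card_ge hUle (by rw [hcent, hcard, hK])
  obtain ⟨φ, hφ⟩ : ∃ φ : Module.End F K, φ = ((x : (Module.End F K)ˣ) : Module.End F K) :=
    ⟨_, rfl⟩
  have hφr : φ ^ r = 1 := by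
    have h1 := pow_orderOf_eq_one (x : (Module.End F K)ˣ)
    rw [hx'] at h1
    have h2 := congrArg Units.val h1
    rw [Units.val_pow_eq_pow_val, Units.val_one] at h2
    rw [hφ]; exact h2
  have hφ1 : φ ≠ 1 := by
    intro h
    have h1 : (x : (Module.End F K)ˣ) = 1 := Units.ext (hφ ▸ h)
    rw [h1, orderOf_one] at hx'
    exact hr.one_lt.ne hx'
  have hirr := il_irr (p := p) hq.symm hV hr hrp hi φ hφr hφ1
  letI instC : CommRing (Algebra.adjoin F {φ}) := Algebra.adjoinCommRingOfComm F (by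
    intro a ha b hb
    rw [Set.mem_singleton_iff] at ha hb
    rw [ha, hb])
  have hφA : φ ∈ Algebra.adjoin F {φ} := Algebra.subset_adjoin (Set.mem_singleton _)
  haveI : Nontrivial (Algebra.adjoin F {φ}) := by
    refine ⟨⟨0, 1, ?_⟩⟩
    intro h
    have h1 : (0 : Module.End F K) = 1 := congrArg Subtype.val h
    have h2 : (0 : Module.End F K) (1 : K) = (1 : Module.End F K) 1 := by rw [h1]
    exact one_ne_zero h2.symm
  haveI : NoZeroDivisors (Algebra.adjoin F {φ}) := by
    refine ⟨?_⟩
    intro a b hab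
    by_cases hb : b = 0
    · exact Or.inr hb
    · left
      have hb' : (b : Module.End F K) ≠ 0 := fun h => hb (Subtype.ext h)
      obtain ⟨c, hc⟩ : ∃ c : K, (b : Module.End F K) c ≠ 0 := by
        by_contra hcon
        push_neg at hcon
        apply hb'
        ext v
        exact hcon v
      apply Subtype.ext
      apply il_kill φ hirr _ hc _ (il_comm _ _ a.2 _ hφA)
      have h1 : ((a * b : Algebra.adjoin F {φ}) : Module.End F K) c = 0 := by
        rw [hab]; rfl
      exact h1
  haveI : IsDomain (Algebra.adjoin F {φ}) := NoZeroDivisors.to_isDomain _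
  haveI : Finite (Algebra.adjoin F {φ}) :=
    Finite.of_injective (fun a : Algebra.adjoin F {φ} => (a : Module.End F K))
      Subtype.val_injective
  letI : Fintype (Algebra.adjoin F {φ}) := Fintype.ofFinite _
  have hcardA : Fintype.card (Algebra.adjoin F {φ}) = q ^ n := by
    rw [← Nat.card_eq_fintype_card, ← hV]
    apply Nat.card_eq_of_bijective
      (fun a : Algebra.adjoin F {φ} => (a : Module.End F K) (1 : K))
    constructor
    · intro a b hab
      have h2 : ((a : Module.End F K) - (b : Module.End F K)) = 0 := by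
        apply il_kill φ hirr 1 one_ne_zero
        · exact il_comm φ _ (sub_mem a.2 b.2) _ hφA
        · rw [LinearMap.sub_apply]; exact sub_eq_zero.2 hab
      exact Subtype.ext (sub_eq_zero.mp h2)
    · intro v
      obtain ⟨ρ, hρ, hρv⟩ := il_surj φ hirr 1 one_ne_zero v
      exact ⟨⟨ρ, hρ⟩, hρv⟩
  let pb := Field.powerBasisOfFiniteOfSeparable F K
  have hmd : minpoly F pb.gen ∣ (X ^ (q ^ n) - X : F[X]) := by
    apply minpoly.dvd
    rw [← hK]
    simp [FiniteField.pow_card]
  have hmdeg : 0 < (minpoly F pb.gen).natDegree := minpoly.natDegree_pos pb.isIntegral_gen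
  obtain ⟨θA, hθA⟩ := sg_root (F := F) (A := Algebra.adjoin F {φ}) (q ^ n) hcardA
    (Nat.one_lt_pow (by omega) hq1) _ hmd hmdeg
  have hθ : aeval (θA : Module.End F K) (minpoly F pb.gen) = 0 := by
    have h1 := aeval_subalgebra_coe (minpoly F pb.gen) (Algebra.adjoin F {φ}) θA
    have h2 : ((aeval θA (minpoly F pb.gen) : Algebra.adjoin F {φ}) : Module.End F K) = 0 := by
      rw [hθA]; rfl
    exact h1.symm.trans h2
  let τ : K →ₐ[F] Module.End F K := pb.lift (θA : Module.End F K) hθ
  have hτc : ∀ l : K, τ l * φ = φ * τ l := by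
    intro l
    obtain ⟨f', rfl⟩ := pb.exists_eq_aeval' l
    have h1 : τ (aeval pb.gen f') = aeval (θA : Module.End F K) f' := by
      rw [← aeval_algHom_apply]
      rw [show τ pb.gen = (θA : Module.End F K) from PowerBasis.lift_gen pb _ hθ]
    rw [h1]
    have h2 := aeval_subalgebra_coe f' (Algebra.adjoin F {φ}) θA
    rw [← h2]
    exact il_comm φ _ (Subtype.property _) _ hφA
  let g₀ : Module.End F K :=
    { toFun := fun l => τ l 1
      map_add' := fun a b => by rw [map_add, LinearMap.add_apply]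
      map_smul' := fun c a => by rw [map_smul, LinearMap.smul_apply, RingHom.id_apply] }
  have hg₀ : ∀ l μ : K, g₀ (l * μ) = τ l (g₀ μ) := by
    intro l μ
    show τ (l * μ) 1 = τ l (τ μ 1)
    rw [map_mul, Module.End.mul_apply]
  have hg₀1 : g₀ 1 = 1 := by
    have h := map_one τ
    show τ 1 1 = 1
    rw [h, Module.End.one_apply]
  have hg₀inj : Function.Injective g₀ := by
    rw [← LinearMap.ker_eq_bot, LinearMap.ker_eq_bot']
    intro l hl
    by_contra hl0
    have h1 : g₀ (l⁻¹ * l) = τ l⁻¹ (g₀ l) := hg₀ _ _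
    rw [inv_mul_cancel₀ hl0, hl, map_zero, hg₀1] at h1
    exact one_ne_zero h1
  have hg₀bij : Function.Bijective g₀ := ⟨hg₀inj, Finite.injective_iff_surjective.mp hg₀inj⟩
  have hu : IsUnit g₀ := (Module.End.isUnit_iff g₀).mpr hg₀bij
  obtain ⟨g, hg⟩ : ∃ g : (Module.End F K)ˣ, (g : Module.End F K) = g₀ := ⟨hu.unit, hu.unit_spec⟩
  have hMle : ((Units.map ((Algebra.lmul F K : K →ₐ[F] Module.End F K) :
      K →* Module.End F K)).range).map (MulAut.conj g).toMonoidHom ≤ U := by
    rw [hUeq]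
    rintro _ ⟨_, ⟨l, rfl⟩, rfl⟩
    rw [Subgroup.mem_centralizer_iff]
    intro h hh
    rw [Set.mem_singleton_iff] at hh
    rw [hh]
    apply Units.ext
    have h1 : g₀ * (Algebra.lmul F K (l : K)) = τ (l : K) * g₀ := by
      apply LinearMap.ext
      intro μ
      show g₀ ((l : K) * μ) = τ (l : K) (g₀ μ)
      exact hg₀ _ _
    have h3 : g₀ * ((g⁻¹ : (Module.End F K)ˣ) : Module.End F K) = 1 := by
      rw [← hg]; exact Units.mul_inv g
    have h2 : (((MulAut.conj g).toMonoidHom ((Units.map ((Algebra.lmul F K :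
        K →ₐ[F] Module.End F K) : K →* Module.End F K)) l) : (Module.End F K)ˣ) :
        Module.End F K) = τ (l : K) := by
      simp only [MulEquiv.coe_toMonoidHom, MulAut.conj_apply, Units.val_mul, Units.coe_map,
        MonoidHom.coe_coe]
      rw [hg, h1, mul_assoc, h3, mul_one]
    rw [Units.val_mul, Units.val_mul, h2, ← hφ]
    exact (hτc l).symm
  have hMcard : Nat.card ((Units.map ((Algebra.lmul F K : K →ₐ[F] Module.End F K) :
      K →* Module.End F K)).range) = q ^ n - 1 := by
    have hinj : Function.Injective (Units.map ((Algebra.lmul F K : K →ₐ[F] Module.End F K) :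
        K →* Module.End F K)) := by
      intro a b hab
      have h1 := congrArg (fun u : (Module.End F K)ˣ => (u : Module.End F K) 1) hab
      simp at h1
      exact Units.ext h1
    rw [Nat.card_congr (MonoidHom.ofInjective hinj).symm.toEquiv, Nat.card_units,
      Nat.card_eq_fintype_card, hK]
  have hMU : ((Units.map ((Algebra.lmul F K : K →ₐ[F] Module.End F K) :
      K →* Module.End F K)).range).map (MulAut.conj g).toMonoidHom = U := by
    apply Subgroup.eq_of_le_of_card_ge hMle
    rw [hcard, hK, Subgroup.card_map_of_injective (MulAut.conj g).injective]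
    exact hMcard.ge
  refine ⟨g⁻¹, ?_⟩
  rw [← hMU, Subgroup.map_map]
  have hid : (MulAut.conj g⁻¹).toMonoidHom.comp (MulAut.conj g).toMonoidHom =
      MonoidHom.id _ := by
    ext u
    simp [MulAut.conj_apply, mul_assoc]
  rw [hid, Subgroup.map_id]

end Singer

end Cfsg.Agent.Lib.Helper6
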