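import Mathlib

set_option autoImplicit false

namespace Cfsg.Agent.Lib.Helper6

section Singer2

/-- Intersection of a Singer group with a conjugate which is a different subgroup. -/
theorem sg_inter {F K : Type*} [Field F] [Fintype F] [Field K] [Fintype K] [Algebra F K] (n : ℕ)
    (hn : 2 ≤ n) (hdim : Module.finrank F K = n) (g : (Module.End F K)ˣ)
    (hg : ((Units.map ((Algebra.lmul F K : K →ₐ[F] Module.End F K) :
      K →* Module.End F K)).range).map (MulAut.conj g).toMonoidHom ≠
      (Units.map ((Algebra.lmul F K : K →ₐ[F] Module.End F K) : K →* Module.End F K)).range) :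
    ∃ r : ℕ, 1 ≤ r ∧ r ∣ n ∧ r < n ∧
      Nat.card ↥(((Units.map ((Algebra.lmul F K : K →ₐ[F] Module.End F K) :
        K →* Module.End F K)).range).map (MulAut.conj g).toMonoidHom ⊓
        (Units.map ((Algebra.lmul F K : K →ₐ[F] Module.End F K) :
        K →* Module.End F K)).range) ∣ Fintype.card F ^ r - 1 := by
  classical
  haveI : Finite (Module.End F K) :=
    Finite.of_injective (fun g : Module.End F K => (g : K → K)) DFunLike.coe_injective
  haveI : Finite (Module.End F K)ˣ :=
    Finite.of_injective (fun u : (Module.End F K)ˣ => (u : Module.End F K))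
      (fun a b h => Units.ext h)
  obtain ⟨L, hL⟩ : ∃ L : K →* Module.End F K,
      L = ((Algebra.lmul F K : K →ₐ[F] Module.End F K) : K →* Module.End F K) := ⟨_, rfl⟩
  rw [← hL] at hg ⊢
  have hLapp : ∀ l μ : K, L l μ = l * μ := by
    intro l μ
    rw [hL]; rfl
  have hLmul : ∀ l μ : K, L (l * μ) = L l * L μ := fun l μ => map_mul L l μ
  have hLadd : ∀ l μ : K, L (l + μ) = L l + L μ := by
    intro l μ
    rw [hL]
    exact map_add (Algebra.lmul F K) l μ
  have hLalg : ∀ c : F, L (algebraMap F K c) = algebraMap F (Module.End F K) c := by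
    intro c
    rw [hL]
    exact AlgHom.commutes (Algebra.lmul F K) c
  have hL0 : ∀ l : K, L l = 0 → l = 0 := by
    intro l h
    have h2 := congrArg (fun z : Module.End F K => z 1) h
    simp only [hLapp, mul_one, LinearMap.zero_apply] at h2
    exact h2
  let S : Subalgebra F K :=
    { carrier := {l | ∃ μ : K, (g : Module.End F K) * L μ = L l * (g : Module.End F K)}
      mul_mem' := by
        rintro a b ⟨μ, hμ⟩ ⟨ν, hν⟩
        exact ⟨μ * ν, by rw [hLmul, hLmul, ← mul_assoc, hμ, mul_assoc, hν, mul_assoc]⟩
      add_mem' := by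
        rintro a b ⟨μ, hμ⟩ ⟨ν, hν⟩
        exact ⟨μ + ν, by rw [hLadd, hLadd, mul_add, add_mul, hμ, hν]⟩
      algebraMap_mem' := fun c => ⟨algebraMap F K c, by
        rw [hLalg]; exact (Algebra.commutes c (g : Module.End F K)).symm⟩ }
  have hSinv : ∀ x ∈ S, x⁻¹ ∈ S := fun x hx =>
    S.inv_mem_of_algebraic (x := ⟨x, hx⟩) (Algebra.IsAlgebraic.isAlgebraic x)
  let E : IntermediateField F K := S.toIntermediateField hSinv
  have hES : ∀ l : K, l ∈ E ↔
      ∃ μ : K, (g : Module.End F K) * L μ = L l * (g : Module.End F K) := fun l => Iff.rfl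
  have hEtop : E ≠ ⊤ := by
    intro htop
    apply hg
    symm
    apply Subgroup.eq_of_le_of_card_ge
    · rintro _ ⟨l, rfl⟩
      have hl : (l : K) ∈ E := by rw [htop]; exact IntermediateField.mem_top
      obtain ⟨μ, hμ⟩ := (hES _).1 hl
      have hμ0 : μ ≠ 0 := by
        rintro rfl
        have hLzero : L 0 = 0 := by
          rw [hL]; exact map_zero (Algebra.lmul F K)
        rw [hLzero, mul_zero] at hμ
        have h1 : L (l : K) = 0 := by
          have := congrArg (fun z => z * ((g⁻¹ : (Module.End F K)ˣ) : Module.End F K)) hμ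
          simp only [zero_mul, mul_assoc, Units.mul_inv, mul_one] at this
          exact this.symm
        exact l.ne_zero (hL0 _ h1)
      refine ⟨Units.map L (Units.mk0 μ hμ0), ⟨_, rfl⟩, ?_⟩
      apply Units.ext
      simp only [MulEquiv.coe_toMonoidHom, MulAut.conj_apply, Units.val_mul, Units.coe_map,
        Units.val_mk0]
      rw [hμ, mul_assoc, Units.mul_inv, mul_one]
    · rw [Subgroup.card_map_of_injective (MulAut.conj g).injective]
  refine ⟨Module.finrank F E, Module.finrank_pos, ?_, ?_, ?_⟩
  · rw [← hdim]
    exact Dvd.intro _ (Module.finrank_mul_finrank F E K)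
  · have hdvd : Module.finrank F E ∣ n := by
      rw [← hdim]
      exact Dvd.intro _ (Module.finrank_mul_finrank F E K)
    have hle : Module.finrank F E ≤ n := Nat.le_of_dvd (by omega) hdvd
    rcases Nat.lt_or_ge (Module.finrank F E) n with h | h
    · exact h
    · exfalso
      apply hEtop
      apply IntermediateField.eq_of_le_of_finrank_eq le_top
      rw [IntermediateField.finrank_top', hdim]
      omega
  · have hinj : Function.Injective (Units.map (L.comp (E.val : E →* K))) := by
      intro a b hab
      have h1 := congrArg (fun u : (Module.End F K)ˣ => (u : Module.End F K) 1) hab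
      simp only [Units.coe_map, MonoidHom.coe_comp, Function.comp_apply, hLapp, mul_one] at h1
      apply Units.ext
      apply Subtype.ext
      exact h1
    have hcardE : Nat.card (Units.map (L.comp (E.val : E →* K))).range =
        Fintype.card F ^ Module.finrank F E - 1 := by
      rw [Nat.card_congr (MonoidHom.ofInjective hinj).symm.toEquiv, Nat.card_units,
        Module.natCard_eq_pow_finrank (K := F) (V := E), Nat.card_eq_fintype_card]
    rw [← hcardE]
    apply Subgroup.card_dvd_of_le
    rintro d ⟨⟨m, ⟨μ, rfl⟩, hd1⟩, ⟨l, hd2⟩⟩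
    have hlE : (l : K) ∈ E := by
      rw [hES]
      refine ⟨(μ : K), ?_⟩
      have h1 : (MulAut.conj g).toMonoidHom (Units.map L μ) = Units.map L l := by
        rw [hd2]; exact hd1
      have h2 := congrArg Units.val h1
      simp only [MulEquiv.coe_toMonoidHom, MulAut.conj_apply, Units.val_mul, Units.coe_map]
        at h2
      rw [← h2, mul_assoc, Units.inv_mul, mul_one]
    refine ⟨Units.mk0 (⟨(l : K), hlE⟩ : E) (fun h => l.ne_zero (congrArg Subtype.val h)), ?_⟩
    rw [← hd2]
    apply Units.ext
    rfl

end Singer2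

end Cfsg.Agent.Lib.Helper6
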