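import Mathlib

set_option autoImplicit false

namespace Cfsg.Agent.Lib.Helper6

section Singer3

/-- The normaliser of the Singer group in `GL_F(K)` has order `n * (|K| - 1)`. -/
theorem sg_norm {F K : Type*} [Field F] [Fintype F] [Field K] [Fintype K] [Algebra F K] (n : ℕ)
    (hdim : Module.finrank F K = n) :
    Nat.card (Subgroup.normalizer (((Units.map ((Algebra.lmul F K : K →ₐ[F] Module.End F K) :
      K →* Module.End F K)).range : Subgroup (Module.End F K)ˣ) : Set (Module.End F K)ˣ)) =
      n * (Fintype.card K - 1) := by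
  classical
  obtain ⟨L, hL⟩ : ∃ L : K →* Module.End F K,
      L = ((Algebra.lmul F K : K →ₐ[F] Module.End F K) : K →* Module.End F K) := ⟨_, rfl⟩
  rw [← hL]
  have hLapp : ∀ l μ : K, L l μ = l * μ := by
    intro l μ
    rw [hL]; rfl
  obtain ⟨u, hu⟩ : ∃ u : Kˣ × (K ≃ₐ[F] K) → (Module.End F K)ˣ, u = fun p =>
    Units.map L p.1 * LinearMap.GeneralLinearGroup.ofLinearEquiv p.2.toLinearEquiv := ⟨_, rfl⟩
  have hu_app : ∀ (p : Kˣ × (K ≃ₐ[F] K)) (μ : K),
      ((u p : (Module.End F K)ˣ) : Module.End F K) μ = (p.1 : K) * p.2 μ := by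
    intro p μ
    rw [hu]
    show (L (p.1 : K) * (p.2.toLinearEquiv : K →ₗ[F] K)) μ = _
    rw [Module.End.mul_apply, hLapp]; rfl
  have hinv_app' : ∀ (g : (Module.End F K)ˣ) (μ : K),
      ((g⁻¹ : (Module.End F K)ˣ) : Module.End F K) ((g : Module.End F K) μ) = μ := by
    intro g μ
    rw [← Module.End.mul_apply, Units.inv_mul, Module.End.one_apply]
  have hconj : ∀ (p : Kˣ × (K ≃ₐ[F] K)) (μ : Kˣ),
      u p * Units.map L μ = Units.map L (Units.map (p.2 : K →* K) μ) * u p := by
    intro p μ
    apply Units.ext
    apply LinearMap.ext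
    intro κ
    rw [Units.val_mul, Units.val_mul, Module.End.mul_apply, Module.End.mul_apply, hu_app, hu_app]
    simp only [Units.coe_map, hLapp, MonoidHom.coe_coe]
    rw [map_mul]; ring
  have hmemN : ∀ p, u p ∈ Subgroup.normalizer (((Units.map L).range :
      Subgroup (Module.End F K)ˣ) : Set (Module.End F K)ˣ) := by
    intro p
    rw [Subgroup.mem_normalizer_iff]
    intro h
    constructor
    · rintro ⟨μ, rfl⟩
      refine ⟨Units.map (p.2 : K →* K) μ, ?_⟩
      rw [hconj p μ, mul_inv_cancel_right]
    · rintro ⟨ν, hν⟩
      refine ⟨Units.map (p.2.symm : K →* K) ν, ?_⟩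
      have h1 := hconj p (Units.map (p.2.symm : K →* K) ν)
      have h2 : Units.map (p.2 : K →* K) (Units.map (p.2.symm : K →* K) ν) = ν := by
        apply Units.ext; simp
      rw [h2, hν, inv_mul_cancel_right] at h1
      exact mul_left_cancel h1
  have hbij : Function.Bijective (fun p : Kˣ × (K ≃ₐ[F] K) =>
      (⟨u p, hmemN p⟩ : Subgroup.normalizer (((Units.map L).range :
        Subgroup (Module.End F K)ˣ) : Set (Module.End F K)ˣ))) := by
    constructor
    · rintro ⟨l, σ⟩ ⟨l', σ'⟩ h
      have h0 : u (l, σ) = u (l', σ') := congrArg Subtype.val h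
      have h1 : ∀ μ : K, (l : K) * σ μ = (l' : K) * σ' μ := by
        intro μ
        have := congrArg (fun g : (Module.End F K)ˣ => (g : Module.End F K) μ) h0
        simpa only [hu_app] using this
      have hl : (l : K) = l' := by simpa using h1 1
      have hσ : σ = σ' := by
        ext μ
        have := h1 μ
        rw [← hl] at this
        exact mul_left_cancel₀ l.ne_zero this
      rw [Prod.mk.injEq]; exact ⟨Units.ext hl, hσ⟩
    · rintro ⟨g, hgN⟩
      rw [Subgroup.mem_normalizer_iff] at hgN
      have hg1 : (g : Module.End F K) 1 ≠ 0 := by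
        intro h
        have := hinv_app' g 1
        rw [h, map_zero] at this
        exact zero_ne_one this
      have hkey : ∀ μ κ : K, (g : Module.End F K) (μ * κ) * (g : Module.End F K) 1 =
          (g : Module.End F K) μ * (g : Module.End F K) κ := by
        intro μ κ
        by_cases hμ : μ = 0
        · subst hμ; simp
        · obtain ⟨ν, hν⟩ := (hgN (Units.map L (Units.mk0 μ hμ))).1 ⟨_, rfl⟩
          have h1 : g * Units.map L (Units.mk0 μ hμ) = Units.map L ν * g := by
            rw [hν, inv_mul_cancel_right]
          have h2 : ∀ κ : K, (g : Module.End F K) (μ * κ) = (ν : K) * (g : Module.End F K) κ := by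
            intro κ
            have := congrArg (fun z : (Module.End F K)ˣ => (z : Module.End F K) κ) h1
            simpa only [Units.val_mul, Module.End.mul_apply, Units.coe_map, Units.val_mk0,
              hLapp] using this
          have h3 := h2 1
          rw [mul_one] at h3
          rw [h2 κ, h3]; ring
      let h : (Module.End F K)ˣ := (Units.map L (Units.mk0 _ hg1))⁻¹ * g
      have hh_app : ∀ μ : K, (h : Module.End F K) μ =
          ((g : Module.End F K) 1)⁻¹ * (g : Module.End F K) μ := by
        intro μ
        show ((Units.map L (Units.mk0 _ hg1))⁻¹ * g : (Module.End F K)ˣ).val μ = _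
        rw [← map_inv, Units.val_mul, Module.End.mul_apply, Units.coe_map, hLapp]
        simp
      let σ : K ≃ₐ[F] K := AlgEquiv.ofLinearEquiv (LinearMap.GeneralLinearGroup.toLinearEquiv h)
        (by
          show (h : Module.End F K) 1 = 1
          rw [hh_app]; exact inv_mul_cancel₀ hg1)
        (by
          intro μ κ
          show (h : Module.End F K) (μ * κ) = (h : Module.End F K) μ * (h : Module.End F K) κ
          rw [hh_app, hh_app, hh_app]
          have := hkey μ κ
          field_simp
          linear_combination this)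
      refine ⟨(Units.mk0 _ hg1, σ), ?_⟩
      apply Subtype.ext
      apply Units.ext
      apply LinearMap.ext
      intro μ
      rw [hu_app]
      show ((g : Module.End F K) 1) * (h : Module.End F K) μ = _
      rw [hh_app, mul_inv_cancel_left₀ hg1]
  rw [← Nat.card_eq_of_bijective _ hbij, Nat.card_prod, Nat.card_units,
    IsGalois.card_aut_eq_finrank, hdim, Nat.card_eq_fintype_card, mul_comm]

end Singer3

end Cfsg.Agent.Lib.Helper6
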